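import Mathlib
import Cfsg.Agent.Lib.Cores
import Cfsg.Agent.Lib.SylowNormalInf

/-!
# A strongly closed elementary abelian subgroup of order 16 with automizer `A₅`

`Hyp A` collects the (Sylow free) properties of `A` which are used in the proof of `S3197`.
-/

set_option autoImplicit false
set_option linter.style.haveILetI false

namespace Cfsg.Agent.H308.GoldHyp

open Subgroup

variable {G : Type*} [Group G]

/-- The properties of `A` used in the proof. -/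
structure Hyp (A : Subgroup G) : Prop where
  comm : ∀ a ∈ A, ∀ b ∈ A, a * b = b * a
  exp : ∀ a ∈ A, a * a = 1
  card : Nat.card A = 16
  cent : ∀ t : G, (∃ k : ℕ, t ^ 2 ^ k = 1) → (∀ a ∈ A, t * a = a * t) → t ∈ A
  sc : ∀ Q : Subgroup G, IsPGroup 2 Q → A ≤ Q → ∀ x ∈ A, ∀ g : G, g * x * g⁻¹ ∈ Q →
    g * x * g⁻¹ ∈ A
  irr : ∀ B : Subgroup G, B ≤ A → (∀ n ∈ normalizer (A : Set G), ∀ b ∈ B, n * b * n⁻¹ ∈ B) →
    B = ⊥ ∨ B = A
  idx : ∀ X : Subgroup G, X ≤ normalizer (A : Set G) →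
    (∀ n ∈ normalizer (A : Set G), (∀ a ∈ A, n * a = a * n) → n ∈ X) →
    X.relIndex (normalizer (A : Set G)) < 5 → normalizer (A : Set G) ≤ X
  odd : ∀ Y : Subgroup G, Y ≤ normalizer (A : Set G) →
    (∀ n ∈ normalizer (A : Set G), ∀ y ∈ Y, n * y * n⁻¹ ∈ Y) →
    (∀ y ∈ Y, (∃ k : ℕ, y ^ 2 ^ k = 1) → y ∈ A) → ∀ y ∈ Y, ∀ a ∈ A, y * a = a * y
  two : ∃ a ∈ A, ∃ b ∈ A, a ≠ 1 ∧ b ≠ 1 ∧ ∀ g : G, g * a * g⁻¹ ≠ b

theorem Hyp.ne_bot {A : Subgroup G} (h : Hyp A) : A ≠ ⊥ := by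
  rintro rfl
  have := h.card
  rw [card_bot] at this
  norm_num at this

theorem Hyp.isPGroup {A : Subgroup G} (h : Hyp A) : IsPGroup 2 A := by
  intro a
  refine ⟨1, Subtype.ext ?_⟩
  have := h.exp a a.2
  rw [← pow_two] at this
  simpa using this

/-- A subgroup normalized by `A` which meets `A` trivially has odd order. -/
theorem odd_of_inf_eq_bot [Finite G] {A : Subgroup G} (h2 : IsPGroup 2 A)
    (hcent : ∀ t : G, (∃ k : ℕ, t ^ 2 ^ k = 1) → (∀ a ∈ A, t * a = a * t) → t ∈ A)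
    (hsc : ∀ Q : Subgroup G, IsPGroup 2 Q → A ≤ Q → ∀ x ∈ A, ∀ g : G, g * x * g⁻¹ ∈ Q →
      g * x * g⁻¹ ∈ A) {L : Subgroup G} (hL : ∀ a ∈ A, ∀ l ∈ L, a * l * a⁻¹ ∈ L)
    (hAL : A ⊓ L = ⊥) : ¬ 2 ∣ Nat.card L := by
  haveI : Fact (Nat.Prime 2) := ⟨Nat.prime_two⟩
  have hn : A ≤ normalizer (L : Set G) := by
    intro a ha
    rw [mem_normalizer_iff]
    intro l
    refine ⟨fun hl => hL a ha l hl, fun hl => ?_⟩
    have h3 := hL a⁻¹ (A.inv_mem ha) _ hl
    have h4 : a⁻¹ * (a * l * a⁻¹) * a⁻¹⁻¹ = l := by group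
    rwa [h4] at h3
  set H : Subgroup G := A ⊔ L with hH
  have hLH : H ≤ normalizer (L : Set G) := sup_le hn le_normalizer
  haveI hLn : (L.subgroupOf H).Normal := normal_subgroupOf_iff_le_normalizer (le_sup_right) |>.2 hLH
  have hA' : IsPGroup 2 (A.subgroupOf H) := by
    have := h2.comap_of_injective H.subtype H.subtype_injective
    exact this
  obtain ⟨S, hS⟩ := hA'.exists_le_sylow
  have hnd := Lib.SylowNormalInf.not_dvd_relIndex S (L.subgroupOf H)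
  have hbot : (S : Subgroup H) ⊓ L.subgroupOf H = ⊥ := by
    rw [eq_bot_iff]
    rintro t ⟨htS, htL⟩
    have htL' : (t : G) ∈ L := htL
    have hQ : IsPGroup 2 ((S : Subgroup H).map H.subtype) := S.isPGroup'.map _
    have hAQ : A ≤ (S : Subgroup H).map H.subtype := by
      intro a ha
      exact ⟨⟨a, le_sup_left (a := A) (b := L) ha⟩, hS (show (⟨a, _⟩ : H) ∈ A.subgroupOf H from ha), rfl⟩
    have htQ : (t : G) ∈ (S : Subgroup H).map H.subtype := ⟨t, htS, rfl⟩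
    have hcomm : ∀ a ∈ A, (t : G) * a = a * t := by
      intro a ha
      have h3 : (t : G) * a * (t : G)⁻¹ ∈ A := by
        apply hsc _ hQ hAQ a ha
        exact mul_mem (mul_mem htQ (hAQ ha)) (inv_mem htQ)
      have h4 : (t : G) * a * (t : G)⁻¹ * a⁻¹ ∈ A := A.mul_mem h3 (A.inv_mem ha)
      have h5 : (t : G) * a * (t : G)⁻¹ * a⁻¹ ∈ L := by
        have h6 : (t : G) * a * (t : G)⁻¹ * a⁻¹ = (t : G) * (a * (t : G)⁻¹ * a⁻¹) := by group
        rw [h6]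
        exact L.mul_mem htL' (hL a ha _ (L.inv_mem htL'))
      have h6 : (t : G) * a * (t : G)⁻¹ * a⁻¹ ∈ A ⊓ L := ⟨h4, h5⟩
      rw [hAL, mem_bot] at h6
      have h7 : (t : G) * a * (t : G)⁻¹ = a := by
        rw [mul_inv_eq_one] at h6; exact h6
      rw [mul_inv_eq_iff_eq_mul] at h7
      exact h7
    obtain ⟨k, hk⟩ := S.isPGroup' ⟨t, htS⟩
    have hk' : (t : G) ^ 2 ^ k = 1 := by
      have := congrArg (fun w : (S : Subgroup H) => ((w : H) : G)) hk
      simpa using this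
    have htA := hcent t ⟨k, hk'⟩ hcomm
    have : (t : G) ∈ A ⊓ L := ⟨htA, htL'⟩
    rw [hAL, mem_bot] at this
    rw [mem_bot]
    exact Subtype.ext this
  rw [← inf_relIndex_right, hbot, relIndex_bot_left] at hnd
  have hc : Nat.card (L.subgroupOf H) = Nat.card L :=
    Nat.card_congr (subgroupOfEquivOfLe (le_sup_right : L ≤ A ⊔ L)).toEquiv
  rwa [hc] at hnd

end Cfsg.Agent.H308.GoldHyp
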