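import Mathlib
import Cfsg.Agent.H308.GoldHyp
import Cfsg.Agent.Lib.GoldschmidtFusion

/-!
# `Hyp` passes to the quotient by the odd core
-/

set_option autoImplicit false
set_option linter.style.haveILetI false

namespace Cfsg.Agent.H308.GoldTransfer

open Subgroup Cfsg Cfsg.Agent.H308.GoldHyp Cfsg.Agent.Lib

variable {G : Type*} [Group G]

theorem eq_one_of_odd {O : Subgroup G} (hO : (Nat.card O).Coprime 2) {x : G} (hx : x ∈ O)
    (h : ∃ k : ℕ, x ^ 2 ^ k = 1) : x = 1 := by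
  obtain ⟨k, hk⟩ := h
  have h1 : orderOf x ∣ 2 ^ k := orderOf_dvd_of_pow_eq_one hk
  have h2 : orderOf x ∣ Nat.card O := by
    have := orderOf_dvd_natCard (⟨x, hx⟩ : O)
    rwa [← orderOf_coe] at this
  have h3 : (orderOf x).Coprime (2 ^ k) := (hO.coprime_dvd_left h2).pow_right k
  exact orderOf_eq_one_iff.1 (Nat.Coprime.eq_one_of_dvd h3 h1)

/-- If `π R ≤ π Q` for 2-subgroups `R`, `Q`, then `R` is conjugate into `Q` by an element of the
kernel. -/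
theorem exists_lift_conj [Finite G] {O : Subgroup G} [O.Normal] (hO : (Nat.card O).Coprime 2)
    {Q R : Subgroup G} (hQ : IsPGroup 2 Q) (hR : IsPGroup 2 R)
    (h : R.map (QuotientGroup.mk' O) ≤ Q.map (QuotientGroup.mk' O)) :
    ∃ o ∈ O, ∀ r ∈ R, o * r * o⁻¹ ∈ Q := by
  haveI : Fact (Nat.Prime 2) := ⟨Nat.prime_two⟩
  have h1 : R ≤ Q ⊔ O := by
    intro r hr
    obtain ⟨q, hq, hqr⟩ := h ⟨r, hr, rfl⟩
    have h2 : q⁻¹ * r ∈ O := by
      rw [← QuotientGroup.eq]; exact hqr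
    have h3 : r = q * (q⁻¹ * r) := by group
    rw [h3]
    exact mul_mem (le_sup_left (a := Q) hq) (le_sup_right (a := Q) h2)
  have h2 : ¬ 2 ∣ Q.relIndex (Q ⊔ O) := by
    rw [SylowNormalInf.relIndex_sup_of_normal]
    intro h3
    have h4 : 2 ∣ Nat.card O := h3.trans (relIndex_dvd_card Q O)
    have h5 := Nat.dvd_gcd h4 (dvd_refl 2)
    rw [hO] at h5
    norm_num at h5
  obtain ⟨n, hn, hnR⟩ := GoldschmidtFusion.exists_conj_le_in hQ h2 h1 hR
  rw [← SetLike.mem_coe, mul_normal] at hn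
  obtain ⟨q, hq, o, ho, rfl⟩ := Set.mem_mul.1 hn
  refine ⟨o, ho, fun r hr => ?_⟩
  have h3 : (q * o) * r * (q * o)⁻¹ ∈ Q := hnR ⟨r, hr, rfl⟩
  have h4 := Q.mul_mem (Q.mul_mem (Q.inv_mem hq) h3) hq
  have h5 : q⁻¹ * (q * o * r * (q * o)⁻¹) * q = o * r * o⁻¹ := by group
  rwa [h5] at h4

theorem isPGroup_zpowers {x : G} (h : ∃ k : ℕ, x ^ 2 ^ k = 1) : IsPGroup 2 (zpowers x) := by
  obtain ⟨k, h4⟩ := h
  rintro ⟨w, hw⟩
  obtain ⟨i, rfl⟩ := mem_zpowers_iff.1 hw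
  refine ⟨k, Subtype.ext ?_⟩
  change (x ^ i) ^ 2 ^ k = 1
  rw [← zpow_natCast, ← zpow_mul, mul_comm, zpow_mul, zpow_natCast, h4, one_zpow]

theorem exists_lift_conj_mem [Finite G] {O : Subgroup G} [O.Normal] (hO : (Nat.card O).Coprime 2)
    {Q : Subgroup G} (hQ : IsPGroup 2 Q) {r : G} (hr : ∃ k : ℕ, r ^ 2 ^ k = 1)
    (h : (r : G ⧸ O) ∈ Q.map (QuotientGroup.mk' O)) :
    ∃ o ∈ O, o * r * o⁻¹ ∈ Q := by
  obtain ⟨o, ho, h1⟩ := exists_lift_conj hO hQ (isPGroup_zpowers hr) (by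
    rw [MonoidHom.map_zpowers, zpowers_le]
    exact h)
  exact ⟨o, ho, h1 r (mem_zpowers r)⟩

/-- 2-subgroups containing the image of `A` lift to 2-subgroups containing `A`. -/
theorem exists_lift [Finite G] {O : Subgroup G} [O.Normal] (hO : (Nat.card O).Coprime 2)
    {A : Subgroup G} (hA : IsPGroup 2 A) {Q' : Subgroup (G ⧸ O)} (hQ' : IsPGroup 2 Q')
    (hAQ : A.map (QuotientGroup.mk' O) ≤ Q') :
    ∃ Q : Subgroup G, IsPGroup 2 Q ∧ A ≤ Q ∧ Q' ≤ Q.map (QuotientGroup.mk' O) := by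
  haveI : Fact (Nat.Prime 2) := ⟨Nat.prime_two⟩
  obtain ⟨S', hS'⟩ := hQ'.exists_le_sylow
  obtain ⟨S, hS⟩ := Sylow.mapSurjective_surjective (QuotientGroup.mk'_surjective O) 2 S'
  have hS2 : (S : Subgroup G).map (QuotientGroup.mk' O) = (S' : Subgroup (G ⧸ O)) := by
    rw [← hS]; rfl
  obtain ⟨o, ho, hoA⟩ := exists_lift_conj hO S.isPGroup' hA (by
    rw [hS2]; exact hAQ.trans hS')
  refine ⟨(S : Subgroup G).map (MulAut.conj o⁻¹).toMonoidHom, S.isPGroup'.map _, ?_, ?_⟩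
  · intro a ha
    refine ⟨o * a * o⁻¹, hoA a ha, ?_⟩
    simp only [MulEquiv.toMonoidHom_eq_coe, MonoidHom.coe_coe, MulAut.conj_apply]
    group
  · intro q hq
    have h1 : q ∈ (S : Subgroup G).map (QuotientGroup.mk' O) := by rw [hS2]; exact hS' hq
    obtain ⟨s, hs, rfl⟩ := h1
    refine ⟨o⁻¹ * s * o⁻¹⁻¹, ⟨s, hs, rfl⟩, ?_⟩
    change QuotientGroup.mk' O (o⁻¹ * s * o⁻¹⁻¹) = _
    have h2 : QuotientGroup.mk' O o = 1 := by
      rw [QuotientGroup.mk'_apply, QuotientGroup.eq_one_iff]; exact ho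
    rw [inv_inv, map_mul, map_mul, map_inv, h2, inv_one, one_mul, mul_one]

/-- `Hyp` passes to the quotient by a normal subgroup of odd order. -/
theorem hyp_map [Finite G] {A : Subgroup G} (h : Hyp A) {O : Subgroup G} [hOn : O.Normal]
    (hO : (Nat.card O).Coprime 2) : Hyp (A.map (QuotientGroup.mk' O)) := by
  haveI : Fact (Nat.Prime 2) := ⟨Nat.prime_two⟩
  set π := QuotientGroup.mk' O with hπ
  have hπs : Function.Surjective π := QuotientGroup.mk'_surjective O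
  have hπ1 : ∀ x, π x = 1 ↔ x ∈ O := fun x => QuotientGroup.eq_one_iff x
  have hA2 : ∀ a ∈ A, ∃ k : ℕ, a ^ 2 ^ k = 1 := fun a ha => ⟨1, by
    rw [pow_one, pow_two]; exact h.exp a ha⟩
  have hAO : ∀ a ∈ A, a ∈ O → a = 1 := fun a ha haO => eq_one_of_odd hO haO (hA2 a ha)
  have hinj : ∀ a ∈ A, ∀ b ∈ A, π a = π b → a = b := by
    intro a ha b hb hab
    have h1 : π (a * b⁻¹) = 1 := by rw [map_mul, map_inv, hab, mul_inv_cancel]
    exact mul_inv_eq_one.1 (hAO _ (A.mul_mem ha (A.inv_mem hb)) ((hπ1 _).1 h1))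
  have hcard : Nat.card (A.map π) = 16 := by
    rw [← h.card]
    refine (Nat.card_congr (Equiv.ofBijective (fun a : A => (⟨π a, ⟨a, a.2, rfl⟩⟩ : A.map π)) ?_)).symm
    refine ⟨fun a b hab => Subtype.ext (hinj a a.2 b b.2 (congrArg Subtype.val hab)), ?_⟩
    rintro ⟨_, a, ha, rfl⟩
    exact ⟨⟨a, ha⟩, rfl⟩
  -- normalizers
  have hnorm1 : ∀ n ∈ normalizer (A : Set G), π n ∈ normalizer ((A.map π : Subgroup (G ⧸ O)) : Set (G ⧸ O)) := by
    intro n hn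
    rw [mem_normalizer_iff_map_conj_eq] at hn ⊢
    apply Subgroup.eq_of_le_of_card_ge
    · rintro _ ⟨_, ⟨a, ha, rfl⟩, rfl⟩
      have h1 : n * a * n⁻¹ ∈ A := by
        have h0 : n * a * n⁻¹ ∈ A.map (MulAut.conj n).toMonoidHom := ⟨a, ha, rfl⟩
        exact hn ▸ h0
      refine ⟨_, h1, ?_⟩
      rw [map_mul, map_mul, map_inv]
      rfl
    · rw [card_map_of_injective (K := A.map π) (MulAut.conj (π n)).injective]
  have hnorm2 : ∀ n' ∈ normalizer ((A.map π : Subgroup (G ⧸ O)) : Set (G ⧸ O)),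
      ∃ n ∈ normalizer (A : Set G), π n = n' := by
    intro n' hn'
    obtain ⟨g, rfl⟩ := hπs n'
    have h1 : IsPGroup 2 (A.map (MulAut.conj g).toMonoidHom) := h.isPGroup.map _
    obtain ⟨o, ho, hoA⟩ := exists_lift_conj hO h.isPGroup h1 (by
      rintro _ ⟨_, ⟨a, ha, rfl⟩, rfl⟩
      have h2 := (mem_normalizer_iff.1 hn' (π a)).1 ⟨a, ha, rfl⟩
      have h3 : π (g * a * g⁻¹) = π g * π a * (π g)⁻¹ := by rw [map_mul, map_mul, map_inv]
      change π (g * a * g⁻¹) ∈ A.map π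
      rw [h3]; exact h2)
    refine ⟨o * g, ?_, ?_⟩
    · rw [mem_normalizer_iff_map_conj_eq]
      apply Subgroup.eq_of_le_of_card_ge
      · rintro _ ⟨a, ha, rfl⟩
        have h2 := hoA (g * a * g⁻¹) ⟨a, ha, rfl⟩
        have h3 : (o * g) * a * (o * g)⁻¹ = o * (g * a * g⁻¹) * o⁻¹ := by group
        change (o * g) * a * (o * g)⁻¹ ∈ A
        rw [h3]; exact h2
      · rw [card_map_of_injective (MulAut.conj (o * g)).injective]
    · rw [map_mul, (hπ1 o).2 ho, one_mul]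
  have hnorm3 : (normalizer (A : Set G)).map π = normalizer ((A.map π : Subgroup (G ⧸ O)) : Set (G ⧸ O)) := by
    apply le_antisymm
    · rintro _ ⟨n, hn, rfl⟩
      exact hnorm1 n hn
    · intro n' hn'
      obtain ⟨n, hn, rfl⟩ := hnorm2 n' hn'
      exact ⟨n, hn, rfl⟩
  have hpow : ∀ x : G, (∃ k : ℕ, x ^ 2 ^ k = 1) → ∀ g, ∃ k : ℕ, (g * x * g⁻¹) ^ 2 ^ k = 1 := by
    rintro x ⟨k, hk⟩ g
    exact ⟨k, by rw [conj_pow, hk, mul_one, mul_inv_cancel]⟩
  refine ⟨?_, ?_, hcard, ?_, ?_, ?_, ?_, ?_, ?_⟩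
  · rintro _ ⟨a, ha, rfl⟩ _ ⟨b, hb, rfl⟩
    rw [← map_mul, ← map_mul, h.comm a ha b hb]
  · rintro _ ⟨a, ha, rfl⟩
    rw [← map_mul, h.exp a ha, map_one]
  · -- cent
    intro t' ht' hc
    have h1 : IsPGroup 2 (zpowers t' ⊔ A.map π : Subgroup (G ⧸ O)) := by
      refine IsPGroup.to_sup_of_normal_right' (isPGroup_zpowers ht') (h.isPGroup.map _) ?_
      rw [zpowers_le, mem_normalizer_iff_map_conj_eq]
      apply Subgroup.eq_of_le_of_card_ge
      · rintro _ ⟨a, ha, rfl⟩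
        change t' * a * t'⁻¹ ∈ A.map π
        rw [hc a ha, mul_inv_cancel_right]
        exact ha
      · rw [card_map_of_injective (K := A.map π) (MulAut.conj t').injective]
    obtain ⟨Q, hQ, hAQ, hQ'⟩ := exists_lift hO h.isPGroup h1 le_sup_right
    obtain ⟨t, ht, rfl⟩ := hQ' (le_sup_left (a := zpowers t') (mem_zpowers t'))
    obtain ⟨k, hk⟩ := hQ ⟨t, ht⟩
    have hk' : t ^ 2 ^ k = 1 := by simpa using congrArg Subtype.val hk
    refine ⟨t, h.cent t ⟨k, hk'⟩ fun a ha => ?_, rfl⟩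
    have h2 : t * a * t⁻¹ * a⁻¹ ∈ Q :=
      Q.mul_mem (Q.mul_mem (Q.mul_mem ht (hAQ ha)) (Q.inv_mem ht)) (Q.inv_mem (hAQ ha))
    have h3 : t * a * t⁻¹ * a⁻¹ ∈ O := by
      rw [← hπ1, map_mul, map_mul, map_mul, map_inv, map_inv]
      have h4 := hc (π a) ⟨a, ha, rfl⟩
      change π t * π a = π a * π t at h4
      rw [h4, mul_inv_cancel_right, mul_inv_cancel]
    have h4 : t * a * t⁻¹ * a⁻¹ = 1 := by
      refine eq_one_of_odd hO h3 ?_
      obtain ⟨m, hm⟩ := hQ ⟨_, h2⟩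
      exact ⟨m, by simpa using congrArg Subtype.val hm⟩
    rw [mul_inv_eq_one, mul_inv_eq_iff_eq_mul] at h4
    exact h4
  · -- sc
    rintro Q' hQ'2 hAQ' _ ⟨x, hx, rfl⟩ g' hg'
    obtain ⟨g, rfl⟩ := hπs g'
    obtain ⟨Q, hQ, hAQ, hQ'⟩ := exists_lift hO h.isPGroup hQ'2 hAQ'
    have h1 : π (g * x * g⁻¹) = π g * π x * (π g)⁻¹ := by rw [map_mul, map_mul, map_inv]
    have h2 := hQ' hg'
    rw [← h1] at h2
    obtain ⟨o, ho, h3⟩ := exists_lift_conj_mem hO hQ (hpow x (hA2 x hx) g) h2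
    have h4 : o * (g * x * g⁻¹) * o⁻¹ = (o * g) * x * (o * g)⁻¹ := by group
    rw [h4] at h3
    have h5 := h.sc Q hQ hAQ x hx _ h3
    refine ⟨_, h5, ?_⟩
    rw [← h4, map_mul, map_mul, map_inv, (hπ1 o).2 ho, one_mul, inv_one, mul_one, h1]
  · -- irr
    intro B' hB' hinv
    have h1 : (A ⊓ B'.comap π).map π = B' := by
      apply le_antisymm
      · rintro _ ⟨b, ⟨-, hb⟩, rfl⟩
        exact hb
      · intro b' hb'
        obtain ⟨a, ha, rfl⟩ := hB' hb'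
        exact ⟨a, ⟨ha, hb'⟩, rfl⟩
    rcases h.irr (A ⊓ B'.comap π) inf_le_left (by
      rintro n hn b ⟨hbA, hbB⟩
      refine ⟨(mem_normalizer_iff.1 hn b).1 hbA, ?_⟩
      have h2 := hinv _ (hnorm1 n hn) (π b) hbB
      rw [← map_inv, ← map_mul, ← map_mul] at h2
      exact h2) with h2 | h2
    · left
      rw [← h1, h2, Subgroup.map_bot]
    · right
      rw [← h1, h2]
  · -- idx
    intro X' hX' hc hlt
    have h1 : normalizer (A : Set G) ≤ normalizer (A : Set G) ⊓ X'.comap π := by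
      refine h.idx _ inf_le_left ?_ ?_
      · intro n hn hna
        refine ⟨hn, hc _ (hnorm1 n hn) ?_⟩
        rintro _ ⟨a, ha, rfl⟩
        rw [← map_mul, ← map_mul, hna a ha]
      · rw [inf_comm, inf_relIndex_right, relIndex_comap, hnorm3]
        exact hlt
    intro n' hn'
    obtain ⟨n, hn, rfl⟩ := hnorm2 n' hn'
    exact (h1 hn).2
  · -- odd
    intro Y' hY' hinv htwo y' hy' a' ha'
    have key := h.odd (normalizer (A : Set G) ⊓ Y'.comap π) inf_le_left (by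
      rintro n hn y ⟨hy, hyY⟩
      refine ⟨(normalizer (A : Set G)).mul_mem ((normalizer (A : Set G)).mul_mem hn hy)
          ((normalizer (A : Set G)).inv_mem hn), ?_⟩
      have h2 := hinv _ (hnorm1 n hn) (π y) hyY
      rw [← map_inv, ← map_mul, ← map_mul] at h2
      exact h2) (by
      rintro y ⟨hy, hyY⟩ ⟨k, hk⟩
      obtain ⟨a, ha, hay⟩ := htwo (π y) hyY ⟨k, by rw [← map_pow, hk, map_one]⟩
      refine h.cent y ⟨k, hk⟩ ?_
      -- `a⁻¹ * y` lies in `O` and normalizes `A`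
      have h1 : a⁻¹ * y ∈ O := by
        rw [← hπ1, map_mul, map_inv, hay, inv_mul_cancel]
      have h2 : ∀ b ∈ A, (a⁻¹ * y) * b * (a⁻¹ * y)⁻¹ ∈ A := by
        intro b hb
        have h3 := (mem_normalizer_iff.1 hy b).1 hb
        have h4 := A.mul_mem (A.mul_mem (A.inv_mem ha) h3) ha
        have h5 : a⁻¹ * (y * b * y⁻¹) * a = (a⁻¹ * y) * b * (a⁻¹ * y)⁻¹ := by group
        rwa [h5] at h4
      intro b hb
      have h3 : (a⁻¹ * y) * b * (a⁻¹ * y)⁻¹ * b⁻¹ = 1 := by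
        refine hAO _ (A.mul_mem (h2 b hb) (A.inv_mem hb)) ?_
        have h4 : (a⁻¹ * y) * b * (a⁻¹ * y)⁻¹ * b⁻¹ = (a⁻¹ * y) * (b * (a⁻¹ * y)⁻¹ * b⁻¹) := by group
        rw [h4]
        exact O.mul_mem h1 (hOn.conj_mem _ (O.inv_mem h1) b)
      rw [mul_inv_eq_one, mul_inv_eq_iff_eq_mul] at h3
      have h4 : a⁻¹ * (y * b) = a⁻¹ * (b * y) := by
        calc a⁻¹ * (y * b) = a⁻¹ * y * b := by group
          _ = b * (a⁻¹ * y) := h3
          _ = (b * a⁻¹) * y := by group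
          _ = (a⁻¹ * b) * y := by rw [h.comm b hb _ (A.inv_mem ha)]
          _ = a⁻¹ * (b * y) := by group
      exact mul_left_cancel h4)
    obtain ⟨y, hy, rfl⟩ := hnorm2 y' (hY' hy')
    obtain ⟨a, ha, rfl⟩ := ha'
    rw [← map_mul, ← map_mul, key y ⟨hy, hy'⟩ a ha]
  · -- two
    obtain ⟨a, ha, b, hb, ha1, hb1, hab⟩ := h.two
    refine ⟨π a, ⟨a, ha, rfl⟩, π b, ⟨b, hb, rfl⟩, ?_, ?_, ?_⟩
    · intro h1
      exact ha1 (hAO a ha ((hπ1 a).1 h1))
    · intro h1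
      exact hb1 (hAO b hb ((hπ1 b).1 h1))
    · intro g' hg'
      obtain ⟨g, rfl⟩ := hπs g'
      have h1 : π (g * a * g⁻¹) = π g * π a * (π g)⁻¹ := by rw [map_mul, map_mul, map_inv]
      rw [← h1] at hg'
      obtain ⟨o, ho, h3⟩ := exists_lift_conj_mem hO (isPGroup_zpowers (hA2 b hb))
        (hpow a (hA2 a ha) g) (by
          change π (g * a * g⁻¹) ∈ _
          rw [hg']; exact ⟨b, mem_zpowers b, rfl⟩)
      have h4 : o * (g * a * g⁻¹) * o⁻¹ = (o * g) * a * (o * g)⁻¹ := by group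
      rw [h4] at h3
      obtain ⟨i, hi⟩ := mem_zpowers_iff.1 h3
      have hb2 : b ^ (2 : ℤ) = 1 := by
        rw [zpow_ofNat, pow_two]; exact h.exp b hb
      have hcases : b ^ i = 1 ∨ b ^ i = b := by
        rcases Int.even_or_odd' i with ⟨j, hj | hj⟩
        · left; rw [hj, zpow_mul, hb2, one_zpow]
        · right; rw [hj, zpow_add, zpow_mul, hb2, one_zpow, one_mul, zpow_one]
      rcases hcases with h5 | h5
      · rw [h5] at hi
        apply ha1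
        have h6 := hi.symm
        rwa [mul_inv_eq_one, mul_eq_left] at h6
      · rw [h5] at hi
        exact hab (o * g) hi.symm

end Cfsg.Agent.H308.GoldTransfer
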