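import Mathlib
import Cfsg.Agent.H308.GoldHyp
import Cfsg.Agent.H308.GoldTransfer
import Cfsg.Agent.H308.AltFive

/-!
# Action of a group with quotient `A₅` on an elementary abelian group of order 16
-/

set_option autoImplicit false
set_option linter.style.haveILetI false

namespace Cfsg.Agent.H308.A5Count

open Subgroup Cfsg Cfsg.Agent.H308.GoldHyp Cfsg.Agent.H308

variable {G : Type*} [Group G]

/-- counting fixed points of an element whose fifth power acts trivially -/
theorem modEq_five [Finite G] (x : G) (s : Set G) (h1 : ∀ b ∈ s, x * b * x⁻¹ ∈ s)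
    (h5 : ∀ b ∈ s, x ^ 5 * b = b * x ^ 5) :
    s.ncard ≡ {b ∈ s | x * b = b * x}.ncard [MOD 5] := by
  classical
  haveI : Fact (Nat.Prime 5) := ⟨by norm_num⟩
  haveI : Fintype s := Fintype.ofFinite s
  let f : Function.End s := fun b => ⟨x * b * x⁻¹, h1 b b.2⟩
  have hf : ∀ (n : ℕ) (b : s), ((f ^ n) b : G) = x ^ n * b * (x ^ n)⁻¹ := by
    intro n
    induction n with
    | zero => intro b; rw [pow_zero, pow_zero, inv_one, one_mul, mul_one]; rfl
    | succ n ih =>
      intro b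
      rw [pow_succ']
      change x * ((f ^ n) b : G) * x⁻¹ = _
      rw [ih b, pow_succ']
      group
  have hf5 : f ^ 5 ^ 1 = 1 := by
    funext b
    apply Subtype.ext
    rw [hf, pow_one, h5 b b.2, mul_inv_cancel_right]
    rfl
  have h2 := Equiv.Perm.card_fixedPoints_modEq hf5
  have h3 : s.ncard = Fintype.card s := by
    rw [← Nat.card_eq_fintype_card, Nat.card_coe_set_eq]
  have h4 : {b ∈ s | x * b = b * x}.ncard = Fintype.card (Function.fixedPoints f) := by
    rw [← Nat.card_eq_fintype_card, ← Nat.card_coe_set_eq]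
    refine Nat.card_congr ⟨fun b => ⟨⟨b, b.2.1⟩, ?_⟩, fun b => ⟨b, b.1.2, ?_⟩, fun _ => rfl, fun _ => rfl⟩
    · apply Subtype.ext
      change x * (b : G) * x⁻¹ = b
      rw [b.2.2, mul_inv_cancel_right]
    · have := congrArg Subtype.val b.2
      change x * (b : G) * x⁻¹ = b at this
      rw [mul_inv_eq_iff_eq_mul] at this
      exact this
  rw [h3, h4]
  exact h2

/-- The data: `ψ` maps the normalizer of `A` onto `A₅`, with kernel `A × O`, `O` of odd order. -/
structure Data (A O : Subgroup G) (ψ : normalizer (A : Set G) →* alternatingGroup (Fin 5)) :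
    Prop where
  comm : ∀ a ∈ A, ∀ b ∈ A, a * b = b * a
  exp : ∀ a ∈ A, a * a = 1
  card : Nat.card A = 16
  surj : Function.Surjective ψ
  Ole : O ≤ normalizer (A : Set G)
  Onorm : ∀ n ∈ normalizer (A : Set G), ∀ o ∈ O, n * o * n⁻¹ ∈ O
  Oodd : (Nat.card O).Coprime 2
  ker : ∀ n : normalizer (A : Set G), ψ n = 1 ↔ ∃ a ∈ A, ∃ o ∈ O, (n : G) = a * o
  cen : ∀ n : normalizer (A : Set G), (∀ a ∈ A, (n : G) * a = a * n) → ψ n = 1

section

variable {A O : Subgroup G} {ψ : normalizer (A : Set G) →* alternatingGroup (Fin 5)}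

theorem Data.pow2 (h : Data A O ψ) {a : G} (ha : a ∈ A) : ∃ k : ℕ, a ^ 2 ^ k = 1 :=
  ⟨1, by rw [pow_one, pow_two]; exact h.exp a ha⟩

theorem Data.inv (h : Data A O ψ) {a : G} (ha : a ∈ A) : a⁻¹ = a :=
  inv_eq_of_mul_eq_one_left (h.exp a ha)

theorem Data.inf (h : Data A O ψ) {a : G} (ha : a ∈ A) (ho : a ∈ O) : a = 1 :=
  GoldTransfer.eq_one_of_odd h.Oodd ho (h.pow2 ha)

theorem Data.commO (h : Data A O ψ) {a o : G} (ha : a ∈ A) (ho : o ∈ O) : o * a = a * o := by
  have h1 : o * a * o⁻¹ * a⁻¹ ∈ A :=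
    A.mul_mem ((mem_normalizer_iff.1 (h.Ole ho) a).1 ha) (A.inv_mem ha)
  have h2 : o * a * o⁻¹ * a⁻¹ ∈ O := by
    have h3 : o * a * o⁻¹ * a⁻¹ = o * (a * o⁻¹ * a⁻¹) := by group
    rw [h3]
    exact O.mul_mem ho (h.Onorm a (le_normalizer ha) _ (O.inv_mem ho))
  have h3 := h.inf h1 h2
  rw [mul_inv_eq_one, mul_inv_eq_iff_eq_mul] at h3
  exact h3

theorem Data.cen' (h : Data A O ψ) {n : normalizer (A : Set G)} (hn : ψ n = 1) {a : G}
    (ha : a ∈ A) : (n : G) * a = a * n := by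
  obtain ⟨b, hb, o, ho, hbo⟩ := (h.ker n).1 hn
  rw [hbo, mul_assoc, h.commO ha ho, ← mul_assoc, h.comm b hb a ha, mul_assoc]

theorem Data.conj_mem (_ : Data A O ψ) {n : G} (hn : n ∈ normalizer (A : Set G)) {a : G}
    (ha : a ∈ A) : n * a * n⁻¹ ∈ A := (mem_normalizer_iff.1 hn a).1 ha

/-- 2-elements centralizing `A` are in `A` -/
theorem Data.mem_of_pow (h : Data A O ψ) {n : normalizer (A : Set G)} (hn : ψ n = 1)
    (h2 : ∃ k : ℕ, (n : G) ^ 2 ^ k = 1) : (n : G) ∈ A := by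
  obtain ⟨a, ha, o, ho, hbo⟩ := (h.ker n).1 hn
  obtain ⟨k, hk⟩ := h2
  have h3 : o = a⁻¹ * n := by rw [hbo]; group
  have h4 : Commute a⁻¹ (n : G) := (h.cen' hn (A.inv_mem ha)).symm
  have h5 : o ^ 2 ^ (k + 1) = 1 := by
    rw [h3, h4.mul_pow, pow_succ 2 k, pow_mul (n : G), hk, one_pow, mul_one, mul_comm (2 ^ k) 2,
      pow_mul, inv_pow, pow_two, h.exp a ha, inv_one, one_pow]
  have h6 := GoldTransfer.eq_one_of_odd h.Oodd ho ⟨_, h5⟩
  rw [hbo, h6, mul_one]
  exact ha

/-- elements of order 5 modulo the kernel act fixed point freely -/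
theorem Data.fpf [Finite G] (h : Data A O ψ) {x : normalizer (A : Set G)} (hx5 : ψ x ^ 5 = 1)
    (hx : ψ x ≠ 1) {a : G} (ha : a ∈ A) (hxa : (x : G) * a = a * x) : a = 1 := by
  have h5 : ∀ b ∈ A, (x : G) ^ 5 * b = b * (x : G) ^ 5 := by
    intro b hb
    have := h.cen' (n := x ^ 5) (by rw [map_pow, hx5]) hb
    simpa using this
  have h1 := modEq_five (x : G) (A : Set G) (fun b hb => h.conj_mem x.2 hb) h5
  let C : Subgroup G := A ⊓ centralizer {(x : G)}
  have hC : (C : Set G) = {b ∈ (A : Set G) | (x : G) * b = b * x} := by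
    ext b
    simp only [C, coe_inf, Set.mem_inter_iff, SetLike.mem_coe, mem_centralizer_singleton_iff,
      Set.mem_ofPred_eq]
    exact and_congr_right fun _ => eq_comm
  have h2 : (A : Set G).ncard = 16 := by
    rw [← Nat.card_coe_set_eq]; exact h.card
  rw [h2, ← hC, ← Nat.card_coe_set_eq] at h1
  have h3 : Nat.card C ∣ 16 := by
    rw [← h.card]; exact card_dvd_of_le inf_le_left
  have h1' : Nat.card C % 5 = 1 := h1.symm
  have h4 : Nat.card C ≤ 16 := Nat.le_of_dvd (by norm_num) h3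
  have h6 : Nat.card C = 1 ∨ Nat.card C = 16 := by
    have h7 : Nat.card C = 1 ∨ Nat.card C = 6 ∨ Nat.card C = 11 ∨ Nat.card C = 16 := by omega
    rcases h7 with h7 | h7 | h7 | h7
    · exact Or.inl h7
    · rw [h7] at h3; norm_num at h3
    · rw [h7] at h3; norm_num at h3
    · exact Or.inr h7
  rcases h6 with h7 | h7
  · have h8 : C = ⊥ := card_eq_one.1 h7
    have h9 : a ∈ C := ⟨ha, mem_centralizer_singleton_iff.2 hxa.symm⟩
    rwa [h8, mem_bot] at h9
  · exfalso
    apply hx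
    apply h.cen x
    have h8 : C = A := eq_of_le_of_card_ge inf_le_left (by rw [h7, h.card])
    intro b hb
    rw [← h8] at hb
    exact (mem_centralizer_singleton_iff.1 hb.2).symm

/-- invariant subgroups -/
theorem Data.irr [Finite G] (h : Data A O ψ) {x : normalizer (A : Set G)} (hx5 : ψ x ^ 5 = 1)
    (hx : ψ x ≠ 1) {B : Subgroup G} (hB : B ≤ A) (hinv : ∀ b ∈ B, (x : G) * b * (x : G)⁻¹ ∈ B) :
    B = ⊥ ∨ B = A := by
  have h5 : ∀ b ∈ B, (x : G) ^ 5 * b = b * (x : G) ^ 5 := by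
    intro b hb
    have := h.cen' (n := x ^ 5) (by rw [map_pow, hx5]) (hB hb)
    simpa using this
  have h1 := modEq_five (x : G) (B : Set G) hinv h5
  have hC : {b ∈ (B : Set G) | (x : G) * b = b * x} = {1} := by
    ext b
    simp only [SetLike.mem_coe, Set.mem_ofPred_eq, Set.mem_singleton_iff]
    constructor
    · rintro ⟨hb, hb'⟩
      exact h.fpf hx5 hx (hB hb) hb'
    · rintro rfl
      exact ⟨B.one_mem, by simp⟩
  rw [hC, Set.ncard_singleton, ← Nat.card_coe_set_eq] at h1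
  have h3 : Nat.card B ∣ 16 := by
    rw [← h.card]; exact card_dvd_of_le hB
  have h1' : Nat.card B % 5 = 1 := h1
  have h4 : Nat.card B ≤ 16 := Nat.le_of_dvd (by norm_num) h3
  have h7 : Nat.card B = 1 ∨ Nat.card B = 6 ∨ Nat.card B = 11 ∨ Nat.card B = 16 := by omega
  rcases h7 with h7 | h7 | h7 | h7
  · exact Or.inl (card_eq_one.1 h7)
  · rw [h7] at h3; norm_num at h3
  · rw [h7] at h3; norm_num at h3
  · exact Or.inr (eq_of_le_of_card_ge hB (by rw [h7, h.card]))

/-- `C_A(t) = [A,t]` for elements `t` inducing an involution -/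
theorem Data.cent_eq [Finite G] (h : Data A O ψ) {t : normalizer (A : Set G)}
    (ht2 : ψ t * ψ t = 1) (ht : ψ t ≠ 1) {c : G} (hc : c ∈ A) (htc : (t : G) * c = c * t) :
    ∃ b ∈ A, c = b * ((t : G) * b * (t : G)⁻¹) := by
  classical
  -- the subgroups `C_A(s)`
  let C : normalizer (A : Set G) → Subgroup G := fun s => A ⊓ centralizer {(s : G)}
  have hCmem : ∀ s b, b ∈ C s ↔ b ∈ A ∧ (s : G) * b = b * s := by
    intro s b
    simp only [C, mem_inf, mem_centralizer_singleton_iff]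
    exact and_congr_right fun _ => eq_comm
  obtain ⟨g, hg1, hg2⟩ := AltFive.five_prod (ψ t) ht2 ht
  obtain ⟨n, rfl⟩ := h.surj g
  set u : normalizer (A : Set G) := n * t * n⁻¹ with hu
  have hu' : ψ u = ψ n * ψ t * (ψ n)⁻¹ := by rw [hu, map_mul, map_mul, map_inv]
  have hdisj : C t ⊓ C u = ⊥ := by
    rw [eq_bot_iff]
    rintro b ⟨h1, h2⟩
    obtain ⟨hb, hb1⟩ := (hCmem t b).1 h1
    obtain ⟨-, hb2⟩ := (hCmem u b).1 h2
    refine h.fpf (x := t * u) (by rw [map_mul, hu']; exact hg1) (by rw [map_mul, hu']; exact hg2) hb ?_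
    change (t : G) * u * b = b * (t * u)
    rw [mul_assoc, hb2, ← mul_assoc, hb1, mul_assoc]
  have hcard : Nat.card (C u) = Nat.card (C t) := by
    have h1 : C u = (C t).map (MulAut.conj (n : G)).toMonoidHom := by
      ext b
      rw [hCmem]
      constructor
      · rintro ⟨hb, hb1⟩
        refine ⟨(n : G)⁻¹ * b * n, ?_, ?_⟩
        · change (n : G)⁻¹ * b * n ∈ C t
          rw [hCmem]
          refine ⟨?_, ?_⟩
          · have := h.conj_mem (inv_mem n.2) hb
            rwa [inv_inv] at this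
          · have h2 : (u : G) = n * t * (n : G)⁻¹ := rfl
            rw [h2] at hb1
            have h3 : (t : G) * ((n : G)⁻¹ * b * n) = (n : G)⁻¹ * ((n * t * (n : G)⁻¹) * b) * n := by
              group
            rw [h3, hb1]
            group
        · simp only [MulEquiv.toMonoidHom_eq_coe, MonoidHom.coe_coe, MulAut.conj_apply]
          group
      · rintro ⟨c, hc, rfl⟩
        obtain ⟨hc1, hc2⟩ := (hCmem t c).1 hc
        refine ⟨h.conj_mem n.2 hc1, ?_⟩
        change (n * t * (n : G)⁻¹) * (n * c * (n : G)⁻¹) = (n * c * (n : G)⁻¹) * (n * t * (n : G)⁻¹)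
        have h3 : ((n : G) * t * (n : G)⁻¹) * (n * c * (n : G)⁻¹) = n * (t * c) * (n : G)⁻¹ := by
          group
        rw [h3, hc2]
        group
    rw [h1, card_map_of_injective (MulAut.conj (n : G)).injective]
  have hle : Nat.card (C t) * Nat.card (C t) ≤ 16 := by
    have h1 : Nat.card (C t × C u) ≤ Nat.card A := by
      refine Nat.card_le_card_of_injective (fun p => (⟨(p.1 : G) * p.2,
        A.mul_mem ((hCmem _ _).1 p.1.2).1 ((hCmem _ _).1 p.2.2).1⟩ : A)) ?_
      rintro ⟨⟨a, ha⟩, ⟨b, hb⟩⟩ ⟨⟨a', ha'⟩, ⟨b', hb'⟩⟩ hab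
      have h2 : a * b = a' * b' := congrArg Subtype.val hab
      have h3 : a'⁻¹ * a = b' * b⁻¹ := by
        rw [inv_mul_eq_iff_eq_mul, ← mul_assoc, ← h2, mul_inv_cancel_right]
      have h4 : a'⁻¹ * a ∈ C t ⊓ C u :=
        ⟨(C t).mul_mem ((C t).inv_mem ha') ha, by
          rw [h3]; exact (C u).mul_mem hb' ((C u).inv_mem hb)⟩
      rw [hdisj, mem_bot] at h4
      have h5 := h4
      rw [h3] at h5
      have h6 : a = a' := (inv_mul_eq_one.1 h4).symm
      have h7 : b = b' := (mul_inv_eq_one.1 h5).symm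
      subst h6 h7
      rfl
    rw [Nat.card_prod, hcard, h.card] at h1
    exact h1
  -- the homomorphism `b ↦ b * b^t`
  let θ : A →* A := 
    { toFun := fun b => ⟨b * ((t : G) * b * (t : G)⁻¹), A.mul_mem b.2 (h.conj_mem t.2 b.2)⟩
      map_one' := by apply Subtype.ext; simp
      map_mul' := by
        rintro ⟨b, hb⟩ ⟨c, hc⟩
        apply Subtype.ext
        change b * c * (t * (b * c) * (t : G)⁻¹) = b * (t * b * (t : G)⁻¹) * (c * (t * c * (t : G)⁻¹))
        have h1 := h.comm c hc _ (h.conj_mem t.2 hb)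
        calc b * c * (t * (b * c) * (t : G)⁻¹) = b * (c * (t * b * (t : G)⁻¹)) * (t * c * (t : G)⁻¹) := by
              group
          _ = _ := by rw [h1]; group }
  have ht2' : ∀ b ∈ A, (t : G) * (t * b * (t : G)⁻¹) * (t : G)⁻¹ = b := by
    intro b hb
    have h1 := h.cen' (n := t * t) (by rw [map_mul, ht2]) hb
    change (t : G) * t * b = b * (t * t) at h1
    calc (t : G) * (t * b * (t : G)⁻¹) * (t : G)⁻¹ = (t * t * b) * ((t : G)⁻¹ * (t : G)⁻¹) := by group
      _ = b := by rw [h1]; group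
  have hker : ∀ b : A, b ∈ θ.ker ↔ (b : G) ∈ C t := by
    intro b
    rw [MonoidHom.mem_ker, hCmem, Subtype.ext_iff]
    change (b : G) * (t * b * (t : G)⁻¹) = 1 ↔ _
    rw [mul_eq_one_iff_inv_eq, h.inv b.2]
    constructor
    · intro h1
      refine ⟨b.2, ?_⟩
      rw [eq_comm, mul_inv_eq_iff_eq_mul] at h1
      exact h1
    · rintro ⟨-, h1⟩
      rw [h1, mul_inv_cancel_right]
  have hkc : Nat.card θ.ker = Nat.card (C t) := by
    refine Nat.card_congr ⟨fun b => ⟨(b : A), (hker b).1 b.2⟩,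
      fun b => ⟨⟨b, ((hCmem _ _).1 b.2).1⟩, (hker _).2 b.2⟩, fun _ => rfl, fun _ => rfl⟩
  have hrange : ∀ b : A, ((θ b : A) : G) ∈ C t := by
    intro b
    rw [hCmem]
    refine ⟨(θ b).2, ?_⟩
    change (t : G) * (b * (t * b * (t : G)⁻¹)) = (b * (t * b * (t : G)⁻¹)) * t
    have h1 : (t : G) * (b * (t * b * (t : G)⁻¹)) =
        (t * b * (t : G)⁻¹) * (t * (t * b * (t : G)⁻¹) * (t : G)⁻¹) * t := by group
    rw [h1, ht2' b b.2, h.comm _ (h.conj_mem t.2 b.2) b b.2]
  have hr : Nat.card θ.range ≤ Nat.card (C t) :=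
    Nat.card_le_card_of_injective (fun b => (⟨((b : A) : G), by
      obtain ⟨c, hc⟩ := b.2
      rw [← hc]; exact hrange c⟩ : C t)) (by
        intro a b hab
        exact Subtype.ext (Subtype.ext (congrArg (fun w : C t => (w : G)) hab)))
  have hkr : Nat.card θ.ker * Nat.card θ.range = 16 := by
    rw [← index_ker, card_mul_index, h.card]
  rw [hkc] at hkr
  have h4 : Nat.card θ.range = Nat.card (C t) := by
    have h5 : Nat.card (C t) ≤ 4 := by
      by_contra hcon
      push Not at hcon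
      have := Nat.mul_le_mul hcon hcon
      omega
    have h6 : 4 ≤ Nat.card θ.range := by
      by_contra hcon
      push Not at hcon
      have h7 : Nat.card θ.range ≤ 3 := by omega
      have := Nat.mul_le_mul h5 h7
      omega
    have h7 : Nat.card θ.range ≤ 4 := hr.trans h5
    have h8 : Nat.card θ.range = 4 := by omega
    rw [h8] at hkr ⊢
    omega
  -- hence every element of `C_A(t)` is in the range
  have h5 : (θ.range.map A.subtype) = C t := by
    apply eq_of_le_of_card_ge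
    · rintro _ ⟨_, ⟨b, rfl⟩, rfl⟩
      exact hrange b
    · rw [card_map_of_injective A.subtype_injective, h4]
  have h6 : c ∈ θ.range.map A.subtype := by
    rw [h5, hCmem]; exact ⟨hc, htc⟩
  obtain ⟨_, ⟨b, rfl⟩, hb⟩ := h6
  exact ⟨b, b.2, hb.symm⟩

/-- two involutions `v` and `v o`, `o` of odd order, are conjugate. -/
theorem conj_of_odd {v o : G} (hv : v * v = 1) (hvo : (v * o) * (v * o) = 1)
    (ho : Odd (orderOf o)) : ∃ k : ℕ, o ^ k * v * (o ^ k)⁻¹ = v * o := by
  have h1 : v⁻¹ = v := inv_eq_of_mul_eq_one_left hv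
  have h2 : v * o * v⁻¹ = o⁻¹ := by
    rw [h1, eq_inv_iff_mul_eq_one]
    calc v * o * v * o = (v * o) * (v * o) := by group
      _ = 1 := hvo
  obtain ⟨m, hm⟩ := ho
  have h3 : ∀ k : ℕ, v * o ^ k * v⁻¹ = (o ^ k)⁻¹ := by
    intro k
    rw [← conj_pow, h2, inv_pow]
  refine ⟨m, ?_⟩
  have h4 := h3 m
  have h5 : o ^ m * v = v * (o ^ m)⁻¹ := by
    rw [← h4, h1, ← mul_assoc, ← mul_assoc, hv, one_mul]
  rw [h5, mul_assoc, ← mul_inv_rev, ← pow_add]
  congr 1
  rw [inv_eq_iff_mul_eq_one, ← pow_succ]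
  have h6 : m + m + 1 = orderOf o := by omega
  rw [h6, pow_orderOf_eq_one]

/-- the involutions of `N_G(A)` outside `C_G(A)` are all conjugate in `N_G(A)` -/
theorem Data.conj_invol [Finite G] (h : Data A O ψ) {t u : normalizer (A : Set G)}
    (ht : t * t = 1) (hu : u * u = 1) (ht1 : ψ t ≠ 1) (hu1 : ψ u ≠ 1) :
    ∃ n : normalizer (A : Set G), n * t * n⁻¹ = u := by
  have hψt : ψ t * ψ t = 1 := by rw [← map_mul, ht, map_one]
  have hψu : ψ u * ψ u = 1 := by rw [← map_mul, hu, map_one]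
  obtain ⟨g, hg⟩ := AltFive.invol_conj (ψ t) (ψ u) hψt ht1 hψu hu1
  obtain ⟨n, rfl⟩ := h.surj g
  set t' : normalizer (A : Set G) := n * t * n⁻¹ with ht'
  have ht'2 : t' * t' = 1 := by
    rw [ht']
    calc n * t * n⁻¹ * (n * t * n⁻¹) = n * (t * t) * n⁻¹ := by group
      _ = 1 := by rw [ht]; group
  have hψ : ψ t' = ψ u := by rw [ht', map_mul, map_mul, map_inv, hg]
  have hm : ψ (u⁻¹ * t') = 1 := by rw [map_mul, map_inv, hψ, inv_mul_cancel]
  obtain ⟨a, ha, o, ho, hao⟩ := (h.ker _).1 hm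
  have h1 : (t' : G) = u * a * o := by
    have : ((u⁻¹ * t' : normalizer (A : Set G)) : G) = (u : G)⁻¹ * t' := rfl
    rw [this, inv_mul_eq_iff_eq_mul] at hao
    rw [hao, mul_assoc]
  have huG : (u : G) * u = 1 := congrArg Subtype.val hu
  have htG : (t' : G) * t' = 1 := congrArg Subtype.val ht'2
  set v : G := u * a with hv
  have hvN : v ∈ normalizer (A : Set G) :=
    (normalizer (A : Set G)).mul_mem u.2 (le_normalizer ha)
  have huinv : (u : G)⁻¹ = u := inv_eq_of_mul_eq_one_left huG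
  have hv2 : v * v = 1 := by
    refine h.inf ?_ ?_
    · have h2 : v * v = (u * a * (u : G)⁻¹) * a := by
        rw [huinv, hv]; group
      rw [h2]
      exact A.mul_mem (h.conj_mem u.2 ha) ha
    · have h2 : v = t' * o⁻¹ := by rw [h1]; group
      have h3 : v * v = (t' * o⁻¹ * (t' : G)⁻¹) * ((t' * t') * o⁻¹) := by
        rw [h2]; group
      rw [h3, htG, one_mul]
      exact O.mul_mem (h.Onorm _ t'.2 _ (O.inv_mem ho)) (O.inv_mem ho)
  have hodd : Odd (orderOf o) := by
    have h2 : orderOf o ∣ Nat.card O := by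
      have := orderOf_dvd_natCard (⟨o, ho⟩ : O)
      rwa [← orderOf_coe] at this
    have h3 : (orderOf o).Coprime 2 := h.Oodd.coprime_dvd_left h2
    rw [← Nat.not_even_iff_odd]
    intro h4
    have h5 := Nat.dvd_gcd h4.two_dvd (dvd_refl 2)
    rw [h3] at h5
    norm_num at h5
  obtain ⟨k, hk⟩ := conj_of_odd (v := v) (o := o) hv2 (by rw [← h1]; exact htG) hodd
  -- `v` is conjugate to `u`
  have hca : (u : G) * a = a * u := by
    have h2 : (u : G) * a * u * a = 1 := by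
      rw [hv] at hv2
      calc (u : G) * a * u * a = (u * a) * (u * a) := by group
        _ = 1 := hv2
    have h3 : (u : G) * a * u = a := by
      rw [mul_eq_one_iff_eq_inv] at h2
      rw [h2, h.inv ha]
    calc (u : G) * a = (u * a * u) * (u : G)⁻¹ := by group
      _ = a * u := by rw [h3, huinv]
  obtain ⟨b, hb, hab⟩ := h.cent_eq hψu hu1 ha hca
  have h2 : b * u * b⁻¹ = v := by
    have h3 : b * (u : G) * b⁻¹ = (b * (u * b * (u : G)⁻¹)) * u := by
      rw [h.inv hb]; group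
    rw [h3, ← hab, hv, hca]
  have hok : o ^ k ∈ normalizer (A : Set G) := h.Ole (O.pow_mem ho k)
  refine ⟨(⟨b, le_normalizer hb⟩ : normalizer (A : Set G))⁻¹ *
    (⟨o ^ k, hok⟩ : normalizer (A : Set G))⁻¹ * n, ?_⟩
  apply Subtype.ext
  change (b⁻¹ * (o ^ k)⁻¹ * n) * t * (b⁻¹ * (o ^ k)⁻¹ * n)⁻¹ = u
  have h3 : (b⁻¹ * (o ^ k)⁻¹ * n) * t * (b⁻¹ * (o ^ k)⁻¹ * n)⁻¹ =
      b⁻¹ * ((o ^ k)⁻¹ * (n * t * (n : G)⁻¹) * o ^ k) * b := by group
  have h4 : (n : G) * t * (n : G)⁻¹ = v * o := by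
    rw [← h1]; rfl
  rw [h3, h4, ← hk]
  have h5 : b⁻¹ * ((o ^ k)⁻¹ * (o ^ k * v * (o ^ k)⁻¹) * o ^ k) * b = b⁻¹ * v * b := by group
  rw [h5, ← h2]
  group

end

end Cfsg.Agent.H308.A5Count
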