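import Mathlib

/-!
# The centre of a Sylow 2-subgroup of `A₈` has order 2
-/

set_option autoImplicit false

namespace Cfsg.Agent.H308.AltEight

open Equiv Subgroup MulAction

theorem card_A8 : Nat.card (alternatingGroup (Fin 8)) = 20160 := by
  rw [nat_card_alternatingGroup, Nat.card_eq_fintype_card]; decide

theorem card_sylow (P : Sylow 2 (alternatingGroup (Fin 8))) : Nat.card P = 64 := by
  rw [P.card_eq_multiplicity, card_A8]
  have : (20160 : ℕ) = 2 ^ 6 * 315 := by norm_num
  rw [this, Nat.factorization_mul (by norm_num) (by norm_num), Finsupp.add_apply,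
    Nat.Prime.factorization_pow Nat.prime_two, Finsupp.single_eq_same,
    Nat.factorization_eq_zero_of_not_dvd (by norm_num)]
  rfl

/-- no subgroup of order at least 4 is centralized by a Sylow 2-subgroup of `A₈` -/
theorem center_small (P : Sylow 2 (alternatingGroup (Fin 8)))
    (Z : Subgroup (alternatingGroup (Fin 8)))
    (hZ : ∀ z ∈ Z, ∀ x ∈ (P : Subgroup (alternatingGroup (Fin 8))), x * z = z * x) :
    Nat.card Z < 4 := by
  classical
  by_contra hcon
  push Not at hcon
  have htr : IsPretransitive (alternatingGroup (Fin 8)) (Fin 8) :=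
    alternatingGroup.isPretransitive_of_three_le_card (Fin 8) (by simp)
  -- the point stabilizer
  let S0 : Subgroup (alternatingGroup (Fin 8)) := stabilizer (alternatingGroup (Fin 8)) (0 : Fin 8)
  have hS0i : S0.index = 8 := by
    rw [index_stabilizer_of_transitive]; simp
  have hS0 : Nat.card S0 = 2520 := by
    have h1 := S0.card_mul_index
    rw [hS0i, card_A8] at h1
    omega
  set Q : Subgroup (alternatingGroup (Fin 8)) := (P : Subgroup (alternatingGroup (Fin 8))) with hQ
  have hQc : Nat.card Q = 64 := card_sylow P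
  have hPa : Nat.card (stabilizer Q (0 : Fin 8)) ∣ 8 := by
    have h1 : Nat.card (stabilizer Q (0 : Fin 8)) ∣ 64 := by
      rw [← hQc]; exact card_subgroup_dvd_card _
    have h2 : Nat.card (stabilizer Q (0 : Fin 8)) ∣ 2520 := by
      rw [← hS0]
      let f : stabilizer Q (0 : Fin 8) →* S0 :=
        (Q.subtype.comp (stabilizer Q (0 : Fin 8)).subtype).codRestrict S0 (fun x => x.2)
      have hf : Function.Injective f := by
        intro x y hxy
        apply Subtype.ext
        apply Subtype.ext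
        exact congrArg (fun w : S0 => (w : alternatingGroup (Fin 8))) hxy
      exact Subgroup.card_dvd_of_injective f hf
    have h3 := Nat.dvd_gcd h1 h2
    have h4 : Nat.gcd 64 2520 = 8 := by norm_num
    rwa [h4] at h3
  -- `P` is transitive
  have horb : orbit Q (0 : Fin 8) = Set.univ := by
    have h1 := (stabilizer Q (0 : Fin 8)).card_mul_index
    rw [index_stabilizer, hQc] at h1
    obtain ⟨k, hk⟩ := hPa
    have h2 : (orbit Q (0 : Fin 8)).ncard = 8 * k := by
      have h3 : 0 < Nat.card (stabilizer Q (0 : Fin 8)) := Nat.card_pos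
      have h4 : Nat.card (stabilizer Q (0 : Fin 8)) * (orbit Q (0 : Fin 8)).ncard =
          Nat.card (stabilizer Q (0 : Fin 8)) * (8 * k) := by
        rw [h1]
        calc 64 = 8 * 8 := by norm_num
          _ = 8 * (Nat.card (stabilizer Q (0 : Fin 8)) * k) := by rw [← hk]
          _ = _ := by ring
      exact Nat.eq_of_mul_eq_mul_left h3 h4
    have h3 : (orbit Q (0 : Fin 8)).ncard ≤ 8 := by
      have := Set.ncard_le_card (orbit Q (0 : Fin 8))
      simpa using this
    have h4 : 0 < k := by
      rcases Nat.eq_zero_or_pos k with h5 | h5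
      · rw [h5] at hk; omega
      · exact h5
    refine Set.eq_of_subset_of_ncard_le (Set.subset_univ _) ?_
    rw [h2, Set.ncard_univ]
    simp
    omega
  have hP8 : Nat.card (stabilizer Q (0 : Fin 8)) = 8 := by
    have h1 := (stabilizer Q (0 : Fin 8)).card_mul_index
    rw [index_stabilizer, hQc, horb, Set.ncard_univ] at h1
    simp at h1
    simp
    omega
  have htrans : ∀ b : Fin 8, ∃ x ∈ Q, (x : Perm (Fin 8)) 0 = b := by
    intro b
    have h1 : b ∈ orbit Q (0 : Fin 8) := by rw [horb]; trivial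
    obtain ⟨x, hx⟩ := h1
    exact ⟨x, x.2, hx⟩
  have hcomm : ∀ z ∈ Z, ∀ x ∈ Q, ∀ b : Fin 8, (x : Perm (Fin 8)) ((z : Perm (Fin 8)) b) =
      (z : Perm (Fin 8)) ((x : Perm (Fin 8)) b) := by
    intro z hz x hx b
    have h1 := hZ z hz x hx
    have h2 : ((x * z : alternatingGroup (Fin 8)) : Perm (Fin 8)) = (z * x : alternatingGroup (Fin 8)) := by
      rw [h1]
    exact congrArg (fun w : Perm (Fin 8) => w b) h2
  -- `Z` is semiregular
  have hsemi : ∀ z ∈ Z, ∀ b : Fin 8, (z : Perm (Fin 8)) b = b → z = 1 := by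
    intro z hz b hb
    have h0 : (z : Perm (Fin 8)) 0 = 0 := by
      obtain ⟨x, hx, hxb⟩ := htrans b
      have h1 := hcomm z hz x hx 0
      rw [hxb, hb] at h1
      have h2 : (x : Perm (Fin 8)) ((z : Perm (Fin 8)) 0) = (x : Perm (Fin 8)) 0 := by
        rw [h1, hxb]
      exact (x : Perm (Fin 8)).injective h2
    apply Subtype.ext
    apply Equiv.ext
    intro c
    obtain ⟨x, hx, hxc⟩ := htrans c
    have h1 := hcomm z hz x hx 0
    rw [h0, hxc] at h1
    exact h1.symm
  let O : Fin 8 → Set (Fin 8) := fun b => Set.range (fun z : Z => ((z : alternatingGroup (Fin 8)) : Perm (Fin 8)) b)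
  have hOc : ∀ b, (O b).ncard = Nat.card Z := by
    intro b
    have h1 : Function.Injective (fun z : Z => ((z : alternatingGroup (Fin 8)) : Perm (Fin 8)) b) := by
      intro z w hzw
      have h2 : ((z : alternatingGroup (Fin 8)) : Perm (Fin 8)) b =
        ((w : alternatingGroup (Fin 8)) : Perm (Fin 8)) b := hzw
      have h3 : (((w⁻¹ * z : Z) : alternatingGroup (Fin 8)) : Perm (Fin 8)) b = b := by
        show (((w : alternatingGroup (Fin 8)) : Perm (Fin 8))⁻¹ *
          ((z : alternatingGroup (Fin 8)) : Perm (Fin 8))) b = b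
        rw [Perm.mul_apply, h2]; exact Equiv.symm_apply_apply _ _
      have h4 := hsemi _ (w⁻¹ * z).2 b h3
      have h5 : w⁻¹ * z = 1 := Subtype.ext h4
      exact (inv_mul_eq_one.1 h5).symm
    rw [← Nat.card_coe_set_eq]
    exact (Nat.card_congr (Equiv.ofInjective _ h1)).symm
  have hfix : ∀ b c, c ∈ O b → ∀ x ∈ Q, (x : Perm (Fin 8)) b = b → (x : Perm (Fin 8)) c = c := by
    rintro b _ ⟨z, rfl⟩ x hx hb
    have h1 := hcomm z z.2 x hx b
    rw [hb] at h1
    exact h1
  have hO0 : ∀ b, b ∈ O b := fun b => ⟨1, rfl⟩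
  have hdisj : ∀ b, b ∉ O 0 → ∀ c, c ∈ O b → c ∉ O 0 := by
    rintro b hb _ ⟨z, rfl⟩ ⟨w, hw⟩
    apply hb
    refine ⟨z⁻¹ * w, ?_⟩
    have h1 : ((w : alternatingGroup (Fin 8)) : Perm (Fin 8)) 0 =
      ((z : alternatingGroup (Fin 8)) : Perm (Fin 8)) b := hw
    show (((z : alternatingGroup (Fin 8)) : Perm (Fin 8))⁻¹ *
          ((w : alternatingGroup (Fin 8)) : Perm (Fin 8))) 0 = b
    rw [Perm.mul_apply, h1]; exact Equiv.symm_apply_apply _ _
  -- the point stabilizer of `P` acts semiregularly outside `O 0`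
  have hcov : ∀ b, b ∉ O 0 → ∀ c, c ∈ O 0 ∨ c ∈ O b := by
    intro b hb
    have h1 : Disjoint (O 0) (O b) := by
      rw [Set.disjoint_left]
      intro c h0 hc
      exact hdisj b hb c hc h0
    have h2 : (O 0 ∪ O b).ncard = Nat.card Z + Nat.card Z := by
      rw [Set.ncard_union_eq h1, hOc, hOc]
    have h3 : (O 0 ∪ O b).ncard ≤ 8 := by
      have := Set.ncard_le_card (O 0 ∪ O b)
      simpa using this
    have h4 : O 0 ∪ O b = Set.univ := by
      refine Set.eq_of_subset_of_ncard_le (Set.subset_univ _) ?_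
      rw [h2, Set.ncard_univ]
      have h5 : Nat.card (Fin 8) = 8 := by simp
      omega
    intro c
    have h5 : c ∈ O 0 ∪ O b := by rw [h4]; trivial
    exact h5
  have hx1 : ∀ x ∈ Q, (x : Perm (Fin 8)) 0 = 0 → ∀ b, b ∉ O 0 → (x : Perm (Fin 8)) b = b → x = 1 := by
    intro x hx h0 b hb hxb
    apply Subtype.ext
    apply Equiv.ext
    intro c
    rcases hcov b hb c with h1 | h1
    · exact hfix 0 c h1 x hx h0
    · exact hfix b c h1 x hx hxb
  have hex : ∃ b, b ∉ O 0 := by
    by_contra hall
    push Not at hall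
    have h1 : Nat.card (stabilizer Q (0 : Fin 8)) = 1 := by
      rw [Subgroup.card_eq_one, eq_bot_iff]
      rintro ⟨x, hx⟩ hx0
      rw [mem_bot]
      apply Subtype.ext
      apply Subtype.ext
      apply Equiv.ext
      intro c
      exact hfix 0 c (hall c) x hx hx0
    rw [hP8] at h1
    norm_num at h1
  obtain ⟨b, hb⟩ := hex
  have hle : Nat.card (stabilizer Q (0 : Fin 8)) ≤ ((O 0)ᶜ).ncard := by
    let f : stabilizer Q (0 : Fin 8) → ((O 0)ᶜ : Set (Fin 8)) := fun x =>
      ⟨((x : Q) : alternatingGroup (Fin 8)) • b, by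
        intro h1
        apply hb
        have h2 : ((x : Q) : alternatingGroup (Fin 8))⁻¹ ∈ Q := Q.inv_mem (x : Q).2
        have h3 : (((x : Q) : alternatingGroup (Fin 8))⁻¹ : alternatingGroup (Fin 8)) • (0 : Fin 8) = 0 := by
          rw [inv_smul_eq_iff]
          exact (show (x : Q) • (0 : Fin 8) = 0 from x.2).symm
        have h4 := hfix 0 _ h1 _ h2 h3
        have h5 : (((x : Q) : alternatingGroup (Fin 8))⁻¹ : alternatingGroup (Fin 8)) •
          (((x : Q) : alternatingGroup (Fin 8)) • b) = ((x : Q) : alternatingGroup (Fin 8)) • b := h4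
        rw [inv_smul_smul] at h5
        rw [h5]; exact h1⟩
    have hf : Function.Injective f := by
      intro x y hxy
      have h1 : ((x : Q) : alternatingGroup (Fin 8)) • b = ((y : Q) : alternatingGroup (Fin 8)) • b :=
        congrArg Subtype.val hxy
      have h2 : (((y⁻¹ * x : stabilizer Q (0 : Fin 8)) : Q) : alternatingGroup (Fin 8)) • b = b := by
        show ((((y : Q) : alternatingGroup (Fin 8)))⁻¹ * ((x : Q) : alternatingGroup (Fin 8))) • b = b
        rw [mul_smul, h1, inv_smul_smul]
      have h3 := hx1 _ ((y⁻¹ * x : stabilizer Q (0 : Fin 8)) : Q).2 (y⁻¹ * x).2 b hb h2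
      have h4 : y⁻¹ * x = 1 := Subtype.ext (Subtype.ext h3)
      exact (inv_mul_eq_one.1 h4).symm
    rw [← Nat.card_coe_set_eq]
    exact Nat.card_le_card_of_injective f hf
  have h1 := Set.ncard_add_ncard_compl (O 0)
  rw [hOc] at h1
  have h2 : Nat.card (Fin 8) = 8 := by simp
  omega

end Cfsg.Agent.H308.AltEight
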