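import Mathlib
import Cfsg.Agent.J2Sylow.ZIsModel
import Cfsg.Agent.H308.CentExt

/-!
# The signed permutation model of `C(z)/O(C(z))` is unique

`Mod X f ρ`: `f : T → X` embeds the Sylow 2-subgroup `T` of `J₂`, `ρ : X → SP` is the signed
permutation model of `X`.  Two such groups `X` are isomorphic.
-/

set_option autoImplicit false

namespace Cfsg.Agent.H308.JModel

open Cfsg.Agent.J2Sylow Cfsg.Agent.J2Sylow.Model Subgroup Cfsg.Agent.J2Type.Model
open Cfsg.Agent.J2Sylow.ZIsModel (r)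

/-- `X` with its Sylow 2-subgroup `T` and its signed permutation model `ρ` -/
structure Mod {X : Type*} [Group X] (f : T →* X) (ρ : X →* SP) : Prop where
  inj : Function.Injective f
  z_comm : ∀ x, x * f T.z = f T.z * x
  ker : ∀ x, ρ x = 1 ↔ x = 1 ∨ x = f T.z
  range : ∀ g, (∃ x, ρ x = g) ↔ (Equiv.Perm.sign g.σ = 1 ∧ ∑ i, g.s i = 0)
  conj : ∀ x i, x * f (r i) * x⁻¹ = zp (f T.z) ((ρ x).s i) * f (r ((ρ x).σ i))
  v_inj : ∀ a b i j, zp (f T.z) a * f (r i) = zp (f T.z) b * f (r j) → a = b ∧ i = j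
  card : Nat.card X = 1920

theorem map_zp {X : Type*} [Group X] (f : T →* X) (a : ZMod 2) : f (zp T.z a) = zp (f T.z) a := by
  rcases zmod2_cases a with rfl | rfl
  · rw [zp_zero, zp_zero, map_one]
  · rw [zp_one, zp_one]

theorem rho_eq {X X' : Type*} [Group X] [Group X'] {f : T →* X} {ρ : X →* SP} {f' : T →* X'}
    {ρ' : X' →* SP} (m : Mod f ρ) (m' : Mod f' ρ') (t : T) : ρ (f t) = ρ' (f' t) := by
  have h1 : ∀ i, t * r i * t⁻¹ = zp T.z ((ρ (f t)).s i) * r ((ρ (f t)).σ i) := by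
    intro i
    apply m.inj
    rw [map_mul, map_mul, map_mul, map_inv, map_zp]
    exact m.conj (f t) i
  have h2 : ∀ i, zp (f' T.z) ((ρ (f t)).s i) * f' (r ((ρ (f t)).σ i)) =
      zp (f' T.z) ((ρ' (f' t)).s i) * f' (r ((ρ' (f' t)).σ i)) := by
    intro i
    rw [← m'.conj (f' t) i, ← map_zp, ← map_mul, ← h1, map_mul, map_mul, map_inv]
  apply SP.ext
  · apply Equiv.ext
    intro i
    exact (m'.v_inj _ _ _ _ (h2 i)).2
  · funext i
    exact (m'.v_inj _ _ _ _ (h2 i)).1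

/-- **uniqueness of the model** -/
theorem unique {X X' : Type*} [Group X] [Group X'] [Finite X] [Finite X'] {f : T →* X}
    {ρ : X →* SP} {f' : T →* X'} {ρ' : X' →* SP} (m : Mod f ρ) (m' : Mod f' ρ') :
    Nonempty (X ≃* X') := by
  have hr : ∀ x', ρ' x' ∈ ρ.range := by
    intro x'
    rw [MonoidHom.mem_range, m.range, ← m'.range]
    exact ⟨x', rfl⟩
  have hz : f T.z ≠ 1 := by
    intro h
    have h2 : T.z = 1 := m.inj (by rw [h, map_one])
    exact absurd h2 (by decide)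
  refine CentExt.iso_of_sylow (B := ρ.range) ρ.rangeRestrict (ρ'.codRestrict ρ.range hr)
    ρ.rangeRestrict_surjective ?_ (z := f T.z) (z' := f' T.z) hz ?_ m.z_comm ?_ ?_ f f' m'.inj ?_
    ?_ ?_
  · rintro ⟨g, hg⟩
    rw [MonoidHom.mem_range, m.range, ← m'.range] at hg
    obtain ⟨x', hx'⟩ := hg
    exact ⟨x', Subtype.ext hx'⟩
  · rw [← map_mul]
    have h1 : T.z * T.z = 1 := by decide
    rw [h1, map_one]
  · intro x
    rw [← m.ker x]
    constructor
    · intro h; exact congrArg Subtype.val h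
    · intro h; exact Subtype.ext h
  · intro x
    rw [← m'.ker x]
    constructor
    · intro h; exact congrArg Subtype.val h
    · intro h; exact Subtype.ext h
  · intro t
    exact Subtype.ext (rho_eq m m' t)
  · have h1 := f'.range.card_mul_index
    have h2 : Nat.card f'.range = 128 := by
      rw [← Nat.card_congr (MonoidHom.ofInjective m'.inj).toEquiv, T.card_T]
    rw [h2, m'.card] at h1
    have h3 : f'.range.index = 15 := by omega
    rw [h3]; decide
  · have h1 : T.tau * T.v * T.tau⁻¹ * T.v⁻¹ = T.z := by decide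
    exact ⟨T.tau, T.v, by rw [h1], by rw [h1]⟩

universe u

open Cfsg.Agent.J2Sylow.Functor CentZBuild
open Cfsg.Agent.J2Sylow.ZNonsing (ZStar)

/-- `C(z)/O(C(z))` has the model -/
theorem mod_of_f2 (hSF : SolvFun.{u}) (hFT : OddSolv.{u}) (hZS : ZStar.{u}) {G : Type u} [Group G]
    [Finite G] (h : Setup G)
    (f2 : ∃ g : G, g * h.z = h.z * g ∧ (∀ x ∈ h.Q, g * x * g⁻¹ ∈ h.Q) ∧
      g * h.tau * g⁻¹ = h.v) :
    ∃ ρ : (↥(centralizer ({h.z} : Set G)) ⧸ Cfsg.oddCore ↥(centralizer ({h.z} : Set G))) →* SP,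
      Mod ((QuotientGroup.mk' (Cfsg.oddCore ↥(centralizer ({h.z} : Set G)))).comp (setupC h).φ)
        ρ := by
  have hOn : (Cfsg.oddCore (centralizer ({h.z} : Set G))).Normal := Lib.Cores.pPrimeCore_normal 2
  set π := QuotientGroup.mk' (Cfsg.oddCore (centralizer ({h.z} : Set G))) with hπ
  obtain ⟨⟨ρ, hρ⟩, hcard⟩ := ZIsModel.model (setupC h) (hzC h) (f2C h f2) hSF hFT hZS π
    (QuotientGroup.mk'_surjective _) (QuotientGroup.ker_mk' _)
  refine ⟨ρ, ?_, hρ.z_comm, hρ.ker, hρ.range, hρ.conj, hρ.v_inj, hcard⟩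
  rw [injective_iff_map_eq_one]
  intro t ht
  have h1 : (setupC h).φ t ∈ Cfsg.oddCore (centralizer ({h.z} : Set G)) :=
    (QuotientGroup.eq_one_iff _).1 ht
  have h2 : Odd (orderOf ((setupC h).φ t)) := by
    have h3 : Odd (Nat.card (Cfsg.oddCore (centralizer ({h.z} : Set G)))) := ZQuot.oddCore_odd _
    exact odd_orderOf_of_mem h3 h1
  have h3 : orderOf ((setupC h).φ t) = orderOf t := orderOf_injective _ (setupC h).inj t
  rw [h3] at h2
  have h4 : orderOf t ∣ 2 ^ 7 := by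
    have h5 := orderOf_dvd_natCard t
    rw [T.card_T] at h5
    exact h5
  have h6 : Nat.Coprime (orderOf t) (2 ^ 7) :=
    Nat.Coprime.pow_right _ (Nat.coprime_two_right.mpr h2)
  exact orderOf_eq_one_iff.1 (Nat.Coprime.eq_one_of_dvd h6 h4)

end Cfsg.Agent.H308.JModel
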