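import Mathlib
import Cfsg.Agent.Schreier.ClassPSL

/-!
# Groups with a normal `PSL₃(4)` of odd index and trivial centralizer (helper308)
-/

set_option autoImplicit false
set_option linter.unusedSectionVars false

namespace Cfsg.Agent.H308.LFour

open Subgroup Matrix
open Cfsg.Agent.ClassicalGeometry.AutPSL.Root Cfsg.Agent.ClassicalGeometry.AutPSL.Auto
  Cfsg.Agent.ClassicalGeometry.AutPSL.Main

section

variable {F : Type*} [Field F] [Fintype F]

/-- the square of an automorphism of the field with four elements is trivial -/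
theorem ringEquiv_sq (hF : Fintype.card F = 4) (σ : F ≃+* F) : σ * σ = 1 := by
  have h2 : (2 : F) = 0 := by
    have h1 : ((Fintype.card F : ℕ) : F) = 0 := FiniteField.cast_card_eq_zero F
    rw [hF] at h1
    have h3 : (2 : F) * 2 = 0 := by
      have : ((4 : ℕ) : F) = 2 * 2 := by norm_num
      rw [← this]; exact h1
    rcases mul_eq_zero.1 h3 with h | h <;> exact h
  have h4 : ∀ a : F, a ^ 4 = a := fun a => by
    have := FiniteField.pow_card a
    rwa [hF] at this
  have hq : ∀ a : F, a ≠ 0 → a ≠ 1 → a * a = a + 1 := by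
    intro a ha0 ha1
    have e1 : a * ((a - 1) * (a * a + a + 1)) = 0 := by
      have := h4 a
      linear_combination this
    have e2 := (mul_eq_zero.1 e1).resolve_left ha0
    have e3 := (mul_eq_zero.1 e2).resolve_left (sub_ne_zero.2 ha1)
    linear_combination e3 - (a + 1) * h2
  apply RingEquiv.ext
  intro a
  change σ (σ a) = a
  by_cases ha0 : a = 0
  · rw [ha0, map_zero, map_zero]
  by_cases ha1 : a = 1
  · rw [ha1, map_one, map_one]
  have h5 := hq a ha0 ha1
  have h6 : σ a * σ a = σ a + 1 := by rw [← map_mul, h5, map_add, map_one]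
  have e : (σ a - a) * (σ a - (a + 1)) = 0 := by
    linear_combination h6 + h5 + (1 + a - a * σ a) * h2
  rcases mul_eq_zero.1 e with h | h
  · rw [sub_eq_zero.1 h, sub_eq_zero.1 h]
  · rw [sub_eq_zero.1 h, map_add, map_one, sub_eq_zero.1 h]
    linear_combination h2

/-- conjugation by `GL` -/
noncomputable def CC (F : Type*) [Field F] : GL (Fin 3) F →* MulAut (Matrix.ProjectiveSpecialLinearGroup (Fin 3) F) :=
  (lift (ι := Fin 3) (F := F)).comp cj

theorem sq_mem (hF : Fintype.card F = 4) (α : MulAut (Matrix.ProjectiveSpecialLinearGroup (Fin 3) F)) :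
    α * α ∈ (CC F).range := by
  have hp2 : Fact (Nat.Prime 2) := ⟨Nat.prime_two⟩
  have hc : CharP F 2 := by
    have h2 : (2 : F) = 0 := by
      have h1 : ((Fintype.card F : ℕ) : F) = 0 := FiniteField.cast_card_eq_zero F
      rw [hF] at h1
      have h3 : (2 : F) * 2 = 0 := by
        have : ((4 : ℕ) : F) = 2 * 2 := by norm_num
        rw [← this]; exact h1
      rcases mul_eq_zero.1 h3 with h | h <;> exact h
    exact CharTwo.of_one_ne_zero_of_two_eq_zero one_ne_zero h2
  have hfs : ∀ σ : F ≃+* F, (fld σ * fld σ : MulAut (Matrix.SpecialLinearGroup (Fin 3) F)) = 1 := fun σ => by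
    rw [← map_mul, ringEquiv_sq hF, map_one]
  rcases surj_three 2 le_rfl α with ⟨A, σ, rfl⟩ | ⟨A, σ, rfl⟩
  · refine ⟨A * Matrix.GeneralLinearGroup.map (σ : F →+* F) A, ?_⟩
    rw [CC, MonoidHom.comp_apply, ← map_mul lift]
    congr 1
    calc cj (A * Matrix.GeneralLinearGroup.map (σ : F →+* F) A)
        = cj A * (cj (Matrix.GeneralLinearGroup.map (σ : F →+* F) A) * fld σ) * fld σ := by
          rw [map_mul, mul_assoc, mul_assoc (cj (Matrix.GeneralLinearGroup.map (σ : F →+* F) A)), hfs, mul_one]
      _ = cj A * fld σ * (cj A * fld σ) := by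
          rw [← Schreier.ClassPSL.fld_mul_cj]; simp only [mul_assoc]
  · refine ⟨A * Matrix.GeneralLinearGroup.map (σ : F →+* F) (Schreier.ClassPSL.ctr A), ?_⟩
    rw [CC, MonoidHom.comp_apply, ← map_mul lift]
    congr 1
    have h1 := Schreier.ClassPSL.itr_mul_cj A
    have h2 := Schreier.ClassPSL.itr_mul_fld (ι := Fin 3) σ
    have h3 := Schreier.ClassPSL.fld_mul_cj σ (Schreier.ClassPSL.ctr A)
    calc cj (A * Matrix.GeneralLinearGroup.map (σ : F →+* F) (Schreier.ClassPSL.ctr A))
        = cj A * (cj (Matrix.GeneralLinearGroup.map (σ : F →+* F) (Schreier.ClassPSL.ctr A)) * fld σ) *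
            (fld σ * (itr * itr)) := by
          rw [itr_mul_itr, mul_one, map_mul, mul_assoc,
            mul_assoc (cj (Matrix.GeneralLinearGroup.map (σ : F →+* F) (Schreier.ClassPSL.ctr A))), hfs, mul_one]
      _ = cj A * fld σ * (cj (Schreier.ClassPSL.ctr A) * (itr * fld σ)) * itr := by
          rw [← h3, h2]; simp only [mul_assoc]
      _ = cj A * fld σ * itr * (cj A * fld σ * itr) := by
          rw [← mul_assoc (cj (Schreier.ClassPSL.ctr A)), ← h1]; simp only [mul_assoc]

theorem conj_mem (x : Matrix.ProjectiveSpecialLinearGroup (Fin 3) F) : MulAut.conj x ∈ (CC F).range := by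
  obtain ⟨M, rfl⟩ := pr_surjective x
  refine ⟨(M : GL (Fin 3) F), ?_⟩
  apply MulEquiv.ext
  intro y
  obtain ⟨y, rfl⟩ := pr_surjective y
  rw [CC, MonoidHom.comp_apply, lift_pr, MulAut.conj_apply, ← map_inv, ← map_mul, ← map_mul]
  congr 1

theorem ker_CC : (CC F).ker = Subgroup.center (GL (Fin 3) F) := by
  ext A
  rw [MonoidHom.mem_ker]
  constructor
  · intro h
    have h1 : lift (cj A * fld (RingEquiv.refl F)) = lift (fld (RingEquiv.refl F)) := by
      have h2 : (fld (RingEquiv.refl F) : MulAut (Matrix.SpecialLinearGroup (Fin 3) F)) = 1 := map_one fld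
      rw [h2, mul_one, map_one]
      exact h
    obtain ⟨⟨r, hr⟩, -⟩ := injective_aux h1
    rw [Subgroup.mem_center_iff]
    intro g
    apply Units.ext
    change g.1 * (A : Matrix (Fin 3) (Fin 3) F) = (A : Matrix (Fin 3) (Fin 3) F) * g.1
    rw [← hr]
    exact (scalar_commute (n := Fin 3) r (Commute.all r) g.1).symm
  · intro h
    rw [Matrix.GeneralLinearGroup.center_eq_range_scalar] at h
    obtain ⟨c, rfl⟩ := h
    have h2 : cj (Matrix.GeneralLinearGroup.scalar (Fin 3) c) = 1 :=
      cj_eq_one_of_scalar (r := (c : F)) rfl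
    rw [CC, MonoidHom.comp_apply, h2, map_one]

/-- **a group with a normal `PSL₃(4)` of odd index with trivial centralizer embeds in `PGL₃(4)`** -/
theorem embedding_of_normal_psl (hF : Fintype.card F = 4) {X : Type*} [Group X] [Finite X] {L : Subgroup X}
    (hL : L.Normal) (hC : centralizer (L : Set X) = ⊥) (hodd : ¬ 2 ∣ L.index)
    (e : L ≃* Matrix.ProjectiveSpecialLinearGroup (Fin 3) F) :
    ∃ f : X →* GL (Fin 3) F ⧸ Subgroup.center (GL (Fin 3) F), Function.Injective f := by
  let θ : X →* MulAut (Matrix.ProjectiveSpecialLinearGroup (Fin 3) F) :=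
    (MulAut.congr e).toMonoidHom.comp (MulAut.conjNormal (H := L))
  have hθ : ∀ (g : X) (y : Matrix.ProjectiveSpecialLinearGroup (Fin 3) F),
      θ g y = e (MulAut.conjNormal g (e.symm y)) := fun g y => rfl
  have hinj : Function.Injective θ := by
    rw [injective_iff_map_eq_one]
    intro g hg
    have h1 : g ∈ centralizer (L : Set X) := by
      rw [mem_centralizer_iff]
      intro l hl
      have h2 := DFunLike.congr_fun hg (e ⟨l, hl⟩)
      rw [hθ, MulEquiv.symm_apply_apply, MulAut.one_apply] at h2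
      have h3 := congrArg Subtype.val (e.injective h2)
      rw [MulAut.conjNormal_apply] at h3
      change g * l * g⁻¹ = l at h3
      calc l * g = (g * l * g⁻¹) * g := by rw [h3]
        _ = g * l := by group
    rw [hC] at h1
    exact mem_bot.1 h1
  have hLD : ∀ g ∈ L, θ g ∈ (CC F).range := by
    intro g hg
    have h1 : θ g = MulAut.conj (e ⟨g, hg⟩) := by
      apply MulEquiv.ext
      intro y
      rw [hθ, MulAut.conj_apply]
      have h2 : MulAut.conjNormal g (e.symm y) = (⟨g, hg⟩ : L) * e.symm y * (⟨g, hg⟩ : L)⁻¹ := by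
        apply Subtype.ext
        rw [MulAut.conjNormal_apply]
        rfl
      rw [h2, map_mul, map_mul, map_inv, e.apply_symm_apply]
    rw [h1]
    exact conj_mem _
  have hD : ∀ g : X, θ g ∈ (CC F).range := by
    intro g
    obtain ⟨k, hk⟩ : Odd L.index := Nat.not_even_iff_odd.1 (fun he => hodd he.two_dvd)
    have h1 : g ^ L.index ∈ L := Subgroup.pow_index_mem L g
    have h2 := hLD _ h1
    have h3 : (θ g * θ g) ^ k ∈ (CC F).range := Subgroup.pow_mem _ (sq_mem hF (θ g)) k
    have h4 : θ g = ((θ g * θ g) ^ k)⁻¹ * θ (g ^ L.index) := by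
      rw [map_pow, hk, ← pow_two, ← pow_mul, pow_succ]
      group
    rw [h4]
    exact mul_mem (inv_mem h3) h2
  let θ' : X →* (CC F).range := θ.codRestrict _ hD
  have hθ' : Function.Injective θ' := fun a b h => hinj (congrArg Subtype.val h)
  let E : (CC F).range ≃* GL (Fin 3) F ⧸ Subgroup.center (GL (Fin 3) F) :=
    (QuotientGroup.quotientKerEquivRange (CC F)).symm.trans (QuotientGroup.quotientMulEquivOfEq ker_CC)
  exact ⟨E.toMonoidHom.comp θ', E.injective.comp hθ'⟩

end

/-- transport along an isomorphism of fields -/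
theorem embedding_congr {F F' : Type*} [Field F] [Fintype F] [Field F'] [Fintype F']
    (h : Fintype.card F' = Fintype.card F) {X : Type*} [Group X]
    (hf : ∃ f : X →* GL (Fin 3) F' ⧸ Subgroup.center (GL (Fin 3) F'), Function.Injective f) :
    ∃ f : X →* GL (Fin 3) F ⧸ Subgroup.center (GL (Fin 3) F), Function.Injective f := by
  obtain ⟨f, hf⟩ := hf
  let e : F' ≃+* F := FiniteField.ringEquivOfCardEq h
  let E : GL (Fin 3) F' ≃* GL (Fin 3) F := Units.mapEquiv (RingEquiv.mapMatrix (m := Fin 3) e).toMulEquiv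
  have hE : (Subgroup.center (GL (Fin 3) F')).map E.toMonoidHom = Subgroup.center (GL (Fin 3) F) := by
    ext g
    constructor
    · rintro ⟨g, hg, rfl⟩
      rw [Subgroup.mem_center_iff]
      intro y
      obtain ⟨y, rfl⟩ := E.surjective y
      exact ((map_mul E y g).symm.trans (congrArg E (Subgroup.mem_center_iff.1 hg y))).trans (map_mul E g y)
    · intro hg
      refine ⟨E.symm g, ?_, E.apply_symm_apply g⟩
      change E.symm g ∈ Subgroup.center (GL (Fin 3) F')
      rw [Subgroup.mem_center_iff]
      intro y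
      apply E.injective
      rw [map_mul, map_mul, E.apply_symm_apply]
      exact Subgroup.mem_center_iff.1 hg (E y)
  let Q := QuotientGroup.congr _ _ E hE
  exact ⟨Q.toMonoidHom.comp f, Q.injective.comp hf⟩

end Cfsg.Agent.H308.LFour
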