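import Cfsg.Agent.H308.LFComp

/-!
# Sylow 2-subgroup of type `L₃(4)`: a normal subgroup `N ≥ A` with `S ∩ N = A` (helper308)
-/

set_option autoImplicit false
set_option linter.unusedSectionVars false
open Cfsg

namespace Cfsg.Agent.H308.LFour

open Subgroup Cfsg.Agent.Lib.GoldschmidtFusion
open Cfsg.Agent.SignalizersComponents
open Cfsg.Agent.SignalizersComponents.Components
open Cfsg.Agent.Walter
open Cfsg.Agent.H306.AB (WalThm NoN)
open scoped commutatorElement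

universe u

section

variable {G : Type u} [Group G] [Finite G] {A B : Subgroup G} {S : Sylow 2 G} {L N : Subgroup G}

/-- no component has its Sylow 2-subgroup in `A` -/
theorem false_of_component (hW : WalThm.{u}) (hO : pPrimeCore 2 G = ⊥) (h : TypeL3.IsL3 (S : Subgroup G) A B 4)
    (hL : IsComponent L) (hLA : (S : Subgroup G) ⊓ L ≤ A) : False := by
  have hp2 : Fact (Nat.Prime 2) := ⟨Nat.prime_two⟩
  have hLc := comm_of_le h hLA
  have hLC := H306.AB.inf_centralizer_eq_bot hO hL hLc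
  have hLs := H306.AB.isSimpleGroup_of_comm hO hL hLc
  have hSn := S_le_normalizer hO h hL hLA
  obtain ⟨P, hP⟩ := AbStruct.exists_sylow S hL
  have hmemP : ∀ x : L, x ∈ (P : Subgroup L) ↔ (x : G) ∈ (S : Subgroup G) := fun x => by
    rw [hP, mem_subgroupOf]
  have hWt := hW L hLs (AbStruct.not_comm hL) P
    (fun a ha b hb => Subtype.ext (hLc a ⟨(hmemP a).1 ha, a.2⟩ b ⟨(hmemP b).1 hb, b.2⟩))
  have hna : ∃ a b : L, a * b ≠ b * a := by
    by_contra hcon
    push Not at hcon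
    exact AbStruct.not_comm hL ⟨⟨hcon⟩⟩
  -- `S ∩ L ≤ B`
  have hLB : (S : Subgroup G) ⊓ L ≤ B := by
    by_contra hPZ
    obtain ⟨b, hb, hbA⟩ := h.neB
    obtain ⟨x, hx, hx1, hxZ⟩ := exists_fixed hO h hL hLA hb hbA (hSn (h.B_le hb))
    apply hPZ
    intro y hy
    by_cases hy1 : y = 1
    · rw [hy1]; exact one_mem _
    obtain ⟨m, hm, hmx⟩ := PairsRot.exists_normalizer_conj hWt hna P ⟨x, (mem_inf.1 hx).2⟩
      ((hmemP _).2 (mem_inf.1 hx).1) (fun hh => hx1 (congrArg Subtype.val hh)) ⟨y, (mem_inf.1 hy).2⟩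
      ((hmemP _).2 (mem_inf.1 hy).1) (fun hh => hy1 (congrArg Subtype.val hh))
    have hmx' : (m : G) * x * (m : G)⁻¹ = y := congrArg Subtype.val hmx
    rw [← hmx']
    refine normalizer_inf hO h hL hLA hPZ m.2 ?_ hx (mem_inf.1 hxZ).2
    rw [mem_normalizer_iff]
    intro w
    have h1 := mem_normalizer_iff.1 hm
    constructor
    · intro hw
      have h2 := (h1 ⟨w, (mem_inf.1 hw).2⟩).1 ((hmemP _).2 (mem_inf.1 hw).1)
      exact mem_inf.2 ⟨(hmemP _).1 h2, L.mul_mem (L.mul_mem m.2 (mem_inf.1 hw).2) (L.inv_mem m.2)⟩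
    · intro hw
      have hwL : w ∈ L := by
        have h2 := L.mul_mem (L.mul_mem (L.inv_mem m.2) (mem_inf.1 hw).2) m.2
        have e : (m : G)⁻¹ * (m * w * (m : G)⁻¹) * m = w := by group
        rwa [e] at h2
      have h2 := (h1 ⟨w, hwL⟩).2 ((hmemP _).2 (mem_inf.1 hw).1)
      exact mem_inf.2 ⟨(hmemP _).1 h2, hwL⟩
  -- `A` and `B` act by inner automorphisms
  have hodd : ∀ D : Subgroup G, D ≤ S → (S : Subgroup G) ⊓ L ≤ D → ¬ 2 ∣ D.relIndex L := by
    intro D hD hLD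
    have h1 : D ⊓ L = (S : Subgroup G) ⊓ L := le_antisymm (inf_le_inf_right L hD) (le_inf hLD inf_le_right)
    rw [← inf_relIndex_right, h1, inf_relIndex_right]
    exact H306.AB.relIndex_component_odd S hL
  have hA := fun {a : G} (ha : a ∈ A) => H306.AB.exists_inner_of hLs hLC (h.A_le.trans hSn) (S.isPGroup'.to_le h.A_le)
    h.A_comm (hodd A h.A_le hLA) (AbStruct.two_dvd_card hO hL) ha
  have hB := fun {a : G} (ha : a ∈ B) => H306.AB.exists_inner_of hLs hLC (h.B_le.trans hSn) (S.isPGroup'.to_le h.B_le)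
    h.B_comm (hodd B h.B_le hLB) (AbStruct.two_dvd_card hO hL) ha
  -- every element of `S` is a product of a central element and an element of `C(L)`
  have hS : ∀ s ∈ (S : Subgroup G), ∃ k ∈ A ⊓ B, ∃ c ∈ (S : Subgroup G) ⊓ centralizer (L : Set G), s = k * c := by
    intro s hs
    obtain ⟨a, ha, b, hb, rfl⟩ := h.prod s hs
    obtain ⟨k, hk, c, hc, rfl⟩ := hA ha
    obtain ⟨k', hk', c', hc', rfl⟩ := hB hb
    have hkZ : k ∈ A ⊓ B := mem_inf.2 ⟨(mem_inf.1 hk).1, hLB (mem_inf.2 ⟨h.A_le (mem_inf.1 hk).1, (mem_inf.1 hk).2⟩)⟩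
    have hkZ' : k' ∈ A ⊓ B := mem_inf.2 ⟨hLA (mem_inf.2 ⟨h.B_le (mem_inf.1 hk').1, (mem_inf.1 hk').2⟩), (mem_inf.1 hk').1⟩
    have hcS := h.A_le (mem_inf.1 hc).1
    have hcS' := h.B_le (mem_inf.1 hc').1
    refine ⟨k * k', mul_mem hkZ hkZ', c * c', mem_inf.2 ⟨mul_mem hcS hcS',
      Subgroup.mul_mem _ (mem_inf.1 hc).2 (mem_inf.1 hc').2⟩, ?_⟩
    have h1 := h.comm_Z hkZ' hcS
    calc k * c * (k' * c') = k * (c * k') * c' := by group
      _ = k * k' * (c * c') := by rw [← h1]; group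
  -- hence `[S, S]` centralises `L`
  have hSS : ⁅(S : Subgroup G), (S : Subgroup G)⁆ ≤ centralizer (L : Set G) := by
    rw [Subgroup.commutator_le]
    intro s hs t ht
    obtain ⟨k, hk, c, hc, rfl⟩ := hS s hs
    obtain ⟨k', hk', c', hc', rfl⟩ := hS t ht
    have hcS := (mem_inf.1 hc).1
    have hcS' := (mem_inf.1 hc').1
    have hkS := h.Z_le hk
    have hkS' := h.Z_le hk'
    have e : ⁅k * c, k' * c'⁆ = c * c' * c⁻¹ * c'⁻¹ := by
      rw [commutatorElement_def]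
      have h1 := h.comm_Z hk' hcS
      have h2 := h.comm_Z hk hkS'
      have h3 := h.comm_Z hk hcS
      have h4 := h.comm_Z hk (mul_mem (mul_mem hcS hcS') (inv_mem hcS))
      have h5 := h.comm_Z hk' (mul_mem (mul_mem hcS hcS') (inv_mem hcS))
      calc k * c * (k' * c') * (k * c)⁻¹ * (k' * c')⁻¹
          = k * (c * k') * c' * c⁻¹ * k⁻¹ * c'⁻¹ * k'⁻¹ := by group
        _ = k * k' * (c * c' * c⁻¹) * k⁻¹ * c'⁻¹ * k'⁻¹ := by rw [← h1]; group
        _ = k' * (k * (c * c' * c⁻¹)) * k⁻¹ * c'⁻¹ * k'⁻¹ := by rw [h2]; group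
        _ = k' * (c * c' * c⁻¹) * c'⁻¹ * k'⁻¹ := by rw [h4]; group
        _ = k' * (c * c' * c⁻¹ * c'⁻¹) * k'⁻¹ := by group
        _ = c * c' * c⁻¹ * c'⁻¹ := by
          rw [h.comm_Z hk' (mul_mem (mul_mem (mul_mem hcS hcS') (inv_mem hcS)) (inv_mem hcS')), mul_inv_cancel_right]
    rw [e]
    exact Subgroup.mul_mem _ (Subgroup.mul_mem _ (Subgroup.mul_mem _ (mem_inf.1 hc).2 (mem_inf.1 hc').2)
      (Subgroup.inv_mem _ (mem_inf.1 hc).2)) (Subgroup.inv_mem _ (mem_inf.1 hc').2)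
  obtain ⟨x, hx, hx1⟩ := exists_inf hO S hL
  have hxc : x ∈ centralizer (L : Set G) := hSS (h.der (mem_inf.2 ⟨hLA hx, hLB hx⟩))
  have h1 : x ∈ L ⊓ centralizer (L : Set G) := mem_inf.2 ⟨(mem_inf.1 hx).2, hxc⟩
  rw [hLC] at h1
  exact hx1 (mem_bot.1 h1)

/-- **if some normal `N ≥ A` has `S ∩ N = A` then `A` is normal** -/
theorem A_normal (hW : WalThm.{u}) (hO : pPrimeCore 2 G = ⊥) (h : TypeL3.IsL3 (S : Subgroup G) A B 4)
    (hN : ¬ NoN (S : Subgroup G) A) : A.Normal := by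
  have hp2 : Fact (Nat.Prime 2) := ⟨Nat.prime_two⟩
  unfold NoN at hN
  push Not at hN
  obtain ⟨N, hNn, hAN, hSN⟩ := hN
  -- no components
  have hnc : ∀ L : Subgroup G, ¬ IsComponent L := by
    intro L hL
    refine false_of_component hW hO h hL ?_
    rcases component_le_or_commutator_eq_bot hL (Subgroup.Normal.isSubnormal hNn) with h1 | h1
    · exact (inf_le_inf_left _ h1).trans hSN
    · obtain ⟨a₀, ha₀, ha₀B⟩ := h.neA
      rw [commutator_eq_bot_iff_le_centralizer] at h1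
      rintro s ⟨hs, hsL⟩
      exact h.centA a₀ ha₀ ha₀B s hs (mem_centralizer_iff.1 (h1 hsL) a₀ (hAN ha₀))
  have hnc' : ∀ K : Subgroup N, ¬ IsComponent K := fun K hK =>
    hnc _ (isComponent_map_subtype (Subgroup.Normal.isSubnormal hNn) hK)
  have hNO : pPrimeCore 2 N = ⊥ := by
    have h3 := Lib.Cores.map_subtype_pPrimeCore 2 hNn
    rw [hO, inf_bot_eq] at h3
    exact (Subgroup.map_eq_bot_iff_of_injective _ N.subtype_injective).1 h3
  have hlay : layer N = ⊥ := by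
    rw [eq_bot_iff, layer_le_iff]
    intro K hK
    exact absurd hK (hnc' K)
  have hF : generalizedFittingSubgroup N = pCore 2 N := by
    rw [AbStruct.genFitting_eq hNO, hlay, sup_bot_eq]
  have hC := TwoFusion.FStarControl.centralizer_genFitting_le_fitting (H := N)
  rw [BalanceAux.fitting_eq_pCore 2 hNO, hF] at hC
  -- `A = O₂(N)`
  have hle : pCore 2 N ≤ A.subgroupOf N := by
    obtain ⟨P, hP⟩ := AbStruct.exists_sylow_of_subnormal S (Subgroup.Normal.isSubnormal hNn)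
    refine (Lib.Cores.pCore_le_sylow P).trans ?_
    rw [hP]
    intro x hx
    exact mem_subgroupOf.2 (hSN (mem_inf.2 ⟨mem_subgroupOf.1 hx, x.2⟩))
  have hge : A.subgroupOf N ≤ pCore 2 N := by
    refine le_trans ?_ hC
    intro x hx
    rw [mem_centralizer_iff]
    intro y hy
    exact Subtype.ext (h.A_comm _ (mem_subgroupOf.1 (hle hy)) _ (mem_subgroupOf.1 hx))
  have heq : A = (pCore 2 N).map N.subtype := by
    rw [le_antisymm hle hge, map_subgroupOf_eq_of_le hAN]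
  rw [heq, Lib.Cores.map_subtype_pCore 2 hNn]
  have := Lib.Cores.pCore_normal (G := G) 2
  infer_instance

end

end Cfsg.Agent.H308.LFour
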