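import Cfsg.Agent.H412.Tc.HeisDefs

/-!
# S3621, lemma Cent

A linear automorphism commuting with `B` and agreeing with an element of `B` at every vector
is a scalar.
-/

set_option autoImplicit false

namespace Cfsg.Agent.H308.TcCent

open Cfsg.Agent.H412.Tc

universe u

section

variable {K V : Type*} [Field K] [AddCommGroup V] [Module K V]

/-- A linear automorphism for which every vector is an eigenvector is a scalar. -/
theorem scal_of_eig [Nontrivial V] {z : GV V} (hz : Lin K z)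
    (h : ∀ v : V, ∃ c : K, z • v = c • v) : ∃ d : Kˣ, z = scal K V d := by
  obtain ⟨v, hv⟩ := exists_ne (0 : V)
  obtain ⟨a, ha⟩ := h v
  obtain ⟨a', ha'⟩ := unit_of_smul hv ha
  refine ⟨a', GV_ext fun w => ?_⟩
  rw [scal_smul]
  obtain ⟨b, hb⟩ := h w
  obtain ⟨c, hc⟩ := h (v + w)
  by_cases hdep : ∃ t : K, w = t • v
  · obtain ⟨t, rfl⟩ := hdep
    rw [hz, ha', smul_comm]
  · rw [smul_add, ha', hb, smul_add] at hc
    have h1 : (b - c) • w = (c - a') • v := by
      rw [sub_smul, sub_smul]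
      rw [sub_eq_sub_iff_add_eq_add]
      rw [← sub_eq_zero] at hc ⊢
      rw [← hc]
      abel
    have h2 : b - c = 0 := by
      by_contra hne
      apply hdep
      refine ⟨(b - c)⁻¹ * (c - a'), ?_⟩
      rw [mul_smul, ← h1, smul_smul, inv_mul_cancel₀ hne, one_smul]
    rw [h2, zero_smul] at h1
    have h3 : c - a' = 0 := by
      rcases smul_eq_zero.1 h1.symm with h4 | h4
      · exact h4
      · exact absurd h4 hv
    rw [hb, sub_eq_zero.1 h2, sub_eq_zero.1 h3]

/-- The linear automorphisms commuting with `B` and locally in `B`. -/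
def PC (K : Type*) {V : Type*} [Field K] [AddCommGroup V] [Module K V]
    (B : Subgroup (GV V)) : Subgroup (GV V) where
  carrier := {c | Lin K c ∧ (∀ b ∈ B, c * b = b * c) ∧ ∀ v : V, ∃ b ∈ B, c • v = b • v}
  mul_mem' := by
    rintro c c' ⟨h1, h2, h3⟩ ⟨h1', h2', h3'⟩
    refine ⟨h1.mul h1', fun b hb => ?_, fun v => ?_⟩
    · rw [mul_assoc, h2' b hb, ← mul_assoc, h2 b hb, mul_assoc]
    · obtain ⟨b', hb', e'⟩ := h3' v
      obtain ⟨b, hb, e⟩ := h3 v
      refine ⟨b' * b, B.mul_mem hb' hb, ?_⟩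
      rw [mul_smul, e', ← mul_smul, h2 b' hb', mul_smul, e, mul_smul]
  one_mem' := ⟨Lin.one, fun b _ => by rw [one_mul, mul_one], fun v => ⟨1, B.one_mem, rfl⟩⟩
  inv_mem' := by
    rintro c ⟨h1, h2, h3⟩
    refine ⟨h1.inv, fun b hb => ?_, fun v => ?_⟩
    · have := h2 b hb
      calc c⁻¹ * b = c⁻¹ * (b * c) * c⁻¹ := by group
        _ = c⁻¹ * (c * b) * c⁻¹ := by rw [this]
        _ = b * c⁻¹ := by group
    · obtain ⟨b, hb, e⟩ := h3 (c⁻¹ • v)
      refine ⟨b⁻¹, B.inv_mem hb, ?_⟩
      rw [smul_inv_smul] at e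
      rw [eq_inv_smul_iff, ← e]

theorem mem_PC {B : Subgroup (GV V)} {c : GV V} : c ∈ PC K B ↔
    Lin K c ∧ (∀ b ∈ B, c * b = b * c) ∧ ∀ v : V, ∃ b ∈ B, c • v = b • v := Iff.rfl

theorem PC_conj {A B : Subgroup (GV V)} (hn : ∀ g ∈ A, ∀ b ∈ B, g * b * g⁻¹ ∈ B)
    {g : GV V} (hg : g ∈ A) (hs : Semi K g) {c : GV V} (hc : c ∈ PC K B) :
    g * c * g⁻¹ ∈ PC K B := by
  obtain ⟨h1, h2, h3⟩ := hc
  obtain ⟨σ, hσ⟩ := hs
  refine ⟨fun d v => ?_, fun b hb => ?_, fun v => ?_⟩
  · have h4 : g⁻¹ • d • v = (σ.symm d) • g⁻¹ • v := by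
      rw [inv_smul_eq_iff, hσ, RingEquiv.apply_symm_apply, smul_inv_smul]
    rw [mul_smul, mul_smul, h4, h1, hσ, RingEquiv.apply_symm_apply, mul_smul, mul_smul]
  · have h4 := hn g⁻¹ (A.inv_mem hg) b hb
    rw [inv_inv] at h4
    have h5 := h2 _ h4
    calc g * c * g⁻¹ * b = g * (c * (g⁻¹ * b * g)) * g⁻¹ := by group
      _ = g * (g⁻¹ * b * g * c) * g⁻¹ := by rw [h5]
      _ = _ := by group
  · obtain ⟨b, hb, e⟩ := h3 (g⁻¹ • v)
    refine ⟨g * b * g⁻¹, hn g hg b hb, ?_⟩
    rw [mul_smul, mul_smul, e, mul_smul, mul_smul]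

end

section

variable {K V : Type u} [Field K] [Finite K] [AddCommGroup V] [Finite V] [Module K V]
  {A B : Subgroup (GV V)} {r : ℕ}

/-- The subring generated by `B`. -/
def RB (B : Subgroup (GV V)) : Subring (AddMonoid.End V) :=
  Subring.closure {x | ∃ b ∈ B, x = (b : AddMonoid.End V)}

omit [Finite V] in
theorem comm_RB {c : GV V} (hc : ∀ b ∈ B, c * b = b * c) :
    ∀ x ∈ RB B, (c : AddMonoid.End V) * x = x * c := by
  intro x hx
  induction hx using Subring.closure_induction with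
  | mem x hx =>
    obtain ⟨b, hb, rfl⟩ := hx
    exact congrArg Units.val (hc b hb)
  | zero => rw [mul_zero, zero_mul]
  | one => rw [mul_one, one_mul]
  | add x y _ _ h1 h2 => rw [mul_add, add_mul, h1, h2]
  | neg x _ h1 => rw [mul_neg, neg_mul, h1]
  | mul x y _ _ h1 h2 => rw [← mul_assoc, h1, mul_assoc, h2, mul_assoc]

/-- The restriction of an element of `PC` to an `RB`-submodule. -/
noncomputable def res (W : Submodule (RB B) V) {c : GV V} (hc : c ∈ PC K B) :
    Module.End (RB B) W where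
  toFun w := ⟨c • (w : V), by
    obtain ⟨b, hb, e⟩ := hc.2.2 w
    rw [e]
    exact W.smul_mem (⟨(b : AddMonoid.End V), Subring.subset_closure ⟨b, hb, rfl⟩⟩ : RB B) w.2⟩
  map_add' x y := Subtype.ext (smul_add c (x : V) (y : V))
  map_smul' x y := by
    apply Subtype.ext
    have h1 := comm_RB hc.2.1 x x.2
    exact congrArg (fun f : AddMonoid.End V => f (y : V)) h1

omit [Finite K] in
theorem comm_PC [Nontrivial V] (hB : Heis K V r B) {c c' : GV V} (hc : c ∈ PC K B)
    (hc' : c' ∈ PC K B) : c * c' = c' * c := by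
  classical
  -- scalar commutator
  have h1 : ∀ v : V, ∃ e : K, (c' * c * (c * c')⁻¹) • v = e • v := by
    intro v
    set w := (c * c')⁻¹ • v with hw
    have hv : v = (c * c') • w := by rw [hw, smul_inv_smul]
    obtain ⟨b, hb, e⟩ := hc.2.2 w
    obtain ⟨b', hb', e'⟩ := hc'.2.2 w
    obtain ⟨d, hd⟩ := hB.cc hb hb'
    refine ⟨d, ?_⟩
    rw [mul_smul, ← hw, hv, mul_smul, mul_smul, e, e', ← mul_smul, hc'.2.1 b hb, mul_smul, e',
      ← mul_smul c b', hc.2.1 b' hb', mul_smul b' c, e, hd.smul]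
  obtain ⟨ζ, hζ⟩ := scal_of_eig ((hc'.1.mul hc.1).mul (hc.1.mul hc'.1).inv) h1
  -- a simple submodule
  obtain ⟨W, hW⟩ : ∃ W : Submodule (RB B) V, IsAtom W := by
    have : IsAtomic (Submodule (RB B) V) := inferInstance
    have hne : (⊤ : Submodule (RB B) V) ≠ ⊥ := top_ne_bot
    rcases eq_bot_or_exists_atom_le (⊤ : Submodule (RB B) V) with h | ⟨W, hW, -⟩
    · exact absurd h hne
    · exact ⟨W, hW⟩
  have hWs : IsSimpleModule (RB B) W := isSimpleModule_iff_isAtom.2 hW
  have hfin : Finite (Module.End (RB B) W) :=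
    Finite.of_injective (fun f : Module.End (RB B) W => (f : W → W)) DFunLike.coe_injective
  have hcomm : ∀ x y : Module.End (RB B) W, x * y = y * x := by
    let _ : Field (Module.End (RB B) W) := littleWedderburn _
    exact fun x y => mul_comm x y
  obtain ⟨w, hw, hw0⟩ := (Submodule.ne_bot_iff W).1 hW.1
  have h2 := congrArg (fun f : Module.End (RB B) W => ((f ⟨w, hw⟩ : W) : V))
    (hcomm (res W hc) (res W hc'))
  have h3 : c • c' • w = c' • c • w := h2
  have h4 : c' • c • w = (ζ : K) • c • c' • w := by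
    rw [← mul_smul, ← mul_smul, ← scal_smul, ← mul_smul, ← hζ]
    congr 1
    group
  have h5 : ζ = 1 := by
    rw [h3] at h4
    have h6 : c' • c • w ≠ 0 := by
      rw [ne_eq, smul_eq_zero_iff_eq, smul_eq_zero_iff_eq]
      exact hw0
    have h7 : (1 : K) • c' • c • w = (ζ : K) • c' • c • w := by rw [one_smul]; exact h4
    exact Units.ext (smul_left_injective K h6 h7).symm
  rw [h5, map_one, mul_inv_eq_one] at hζ
  exact hζ.symm

theorem Cent.main (S : SetB K V A B r) (c : GV V) (hc : Lin K c)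
    (hcb : ∀ b ∈ B, c * b = b * c) (hv : ∀ v : V, ∃ b ∈ B, c • v = b • v) :
    ∃ d : Kˣ, c = scal K V d := by
  have : Nontrivial V := by
    rw [← Finite.one_lt_card_iff_nontrivial]
    have := S.card
    omega
  have hmem : c ∈ PC K B := ⟨hc, hcb, hv⟩
  have hcomm : ∀ x ∈ PC K B, ∀ y ∈ PC K B, x * y = y * x :=
    fun x hx y hy => comm_PC S.heis hx hy
  have h1 := S.max (RB (PC K B)) ?_ ?_ ?_ (c : AddMonoid.End V)
    (Subring.subset_closure ⟨c, hmem, rfl⟩)
  · obtain ⟨d, hd⟩ := h1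
    have hd0 : d ≠ 0 := by
      rintro rfl
      obtain ⟨v, hv⟩ := exists_ne (0 : V)
      have h2 : c • v = (0 : V) := by
        have h3 := congrArg (fun f : AddMonoid.End V => f v) hd
        have h4 : c • v = (0 : K) • v := h3
        rw [h4, zero_smul]
      exact hv ((smul_eq_zero_iff_eq c).1 h2)
    exact ⟨Units.mk0 d hd0, Units.ext hd⟩
  · intro a ha b hb
    induction ha using Subring.closure_induction with
    | mem x hx =>
      obtain ⟨x, hx, rfl⟩ := hx
      exact comm_RB (hcomm x hx) b hb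
    | zero => rw [mul_zero, zero_mul]
    | one => rw [mul_one, one_mul]
    | add x y _ _ h1 h2 => rw [mul_add, add_mul, h1, h2]
    | neg x _ h1 => rw [mul_neg, neg_mul, h1]
    | mul x y _ _ h1 h2 => rw [mul_assoc, h2, ← mul_assoc, h1, mul_assoc]
  · intro g hg x hx
    have hgg : ((g⁻¹ : GV V) : AddMonoid.End V) * (g : AddMonoid.End V) = 1 := by
      rw [← Units.val_mul, inv_mul_cancel, Units.val_one]
    have hgg' : (g : AddMonoid.End V) * ((g⁻¹ : GV V) : AddMonoid.End V) = 1 := by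
      rw [← Units.val_mul, mul_inv_cancel, Units.val_one]
    induction hx using Subring.closure_induction with
    | mem x hx =>
      obtain ⟨x, hx, rfl⟩ := hx
      exact Subring.subset_closure ⟨g * x * g⁻¹, PC_conj S.norm hg (S.semi g hg) hx, rfl⟩
    | zero => rw [mul_zero, zero_mul]; exact Subring.zero_mem _
    | one => rw [mul_one, hgg']; exact Subring.one_mem _
    | add x y _ _ h1 h2 => rw [mul_add, add_mul]; exact Subring.add_mem _ h1 h2
    | neg x _ h1 => rw [mul_neg, neg_mul]; exact Subring.neg_mem _ h1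
    | mul x y _ _ h1 h2 =>
      have : (g : AddMonoid.End V) * (x * y) * ((g⁻¹ : GV V) : AddMonoid.End V) =
          ((g : AddMonoid.End V) * x * ((g⁻¹ : GV V) : AddMonoid.End V)) *
          ((g : AddMonoid.End V) * y * ((g⁻¹ : GV V) : AddMonoid.End V)) := by
        calc _ = (g : AddMonoid.End V) * x * 1 * y * ((g⁻¹ : GV V) : AddMonoid.End V) := by
              rw [mul_one]; simp only [mul_assoc]
          _ = _ := by rw [← hgg]; simp only [mul_assoc]
      rw [this]
      exact Subring.mul_mem _ h1 h2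
  · intro d
    by_cases hd : d = 0
    · rw [hd, map_zero]
      exact Subring.zero_mem _
    · refine Subring.subset_closure ⟨scal K V (Units.mk0 d hd), ⟨lin_scal _, fun b hb => ?_,
        fun v => ⟨_, S.heis.scal_mem _, rfl⟩⟩, rfl⟩
      exact ((S.heis.linb hb).scal_comm _).symm

end

end Cfsg.Agent.H308.TcCent

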